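import Cfsg.Agent.Lib.Transpositions.McLForm

/-!
A connected component of transvections without normal unipotent subgroup splits the space.
-/
set_option autoImplicit false

open Module

namespace CfsgLib.Transpositions

variable {k : Type*} [Field k] {V : Type*} [AddCommGroup V] [Module k V]

/-- Two transvections which do not commute. -/
def TvAdj (p q : V × Dual k V) : Prop := p.2 q.1 ≠ 0 ∨ q.2 p.1 ≠ 0

/-- A group generated by one connected class of transvection lines, without normal unipotent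
subgroup. -/
structure TvComp (K : Subgroup (V ≃ₗ[k] V)) (C : Set (V × Dual k V)) : Prop where
  two : (2 : k) ≠ 0
  ne : C.Nonempty
  mem : ∀ p ∈ C, p.1 ≠ 0 ∧ p.2 ≠ 0 ∧ IsTvIn K p.1 p.2
  gen : K ≤ Subgroup.closure {g | ∃ p ∈ C, ∀ x, g x = x + p.2 x • p.1}
  conn : ∀ C' ⊆ C, C'.Nonempty → (∀ p ∈ C', ∀ q ∈ C, TvAdj p q → q ∈ C') → C' = C
  noUnip : ∀ N : Subgroup (V ≃ₗ[k] V), N ≤ K → (∀ h ∈ K, ∀ g ∈ N, h * g * h⁻¹ ∈ N) →
    (∀ g ∈ N, IsNilpotent ((g : V →ₗ[k] V) - LinearMap.id)) → N = ⊥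

/-- The span of the centres. -/
def cSpan (C : Set (V × Dual k V)) : Submodule k V := Submodule.span k (Prod.fst '' C)

/-- The span of the functionals. -/
def fSpan (C : Set (V × Dual k V)) : Submodule k (Dual k V) := Submodule.span k (Prod.snd '' C)

/-- The centres killed by all functionals. -/
def compRad (C : Set (V × Dual k V)) : Submodule k (cSpan C) :=
  (fSpan C).dualCoannihilator.comap (cSpan C).subtype

variable {K : Subgroup (V ≃ₗ[k] V)} {C : Set (V × Dual k V)}

lemma mem_compRad {x : cSpan C} : x ∈ compRad C ↔ ∀ θ ∈ fSpan C, θ (x : V) = 0 := by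
  simp [compRad, Submodule.mem_dualCoannihilator]

namespace TvComp

variable (D : TvComp K C)
include D

lemma move {g : V ≃ₗ[k] V} (hg : g ∈ K) :
    (∀ x, g x - x ∈ cSpan C) ∧ (∀ θ, θ ∘ₗ (g : V →ₗ[k] V) - θ ∈ fSpan C) := by
  have hcl := D.gen hg
  clear hg
  induction hcl using Subgroup.closure_induction with
  | mem t ht =>
    obtain ⟨p, hp, htx⟩ := ht
    refine ⟨fun x => ?_, fun θ => ?_⟩
    · rw [htx, add_sub_cancel_left]
      exact Submodule.smul_mem _ _ (Submodule.subset_span ⟨p, hp, rfl⟩)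
    · rw [show θ ∘ₗ (t : V →ₗ[k] V) - θ = θ p.1 • p.2 from LinearMap.ext fun x => by
        simp [htx, mul_comm]]
      exact Submodule.smul_mem _ _ (Submodule.subset_span ⟨p, hp, rfl⟩)
  | one =>
    refine ⟨fun x => by simp, fun θ => ?_⟩
    rw [show θ ∘ₗ ((1 : V ≃ₗ[k] V) : V →ₗ[k] V) - θ = 0 from LinearMap.ext fun x => by simp]
    exact zero_mem _
  | mul a b _ _ ha hb =>
    refine ⟨fun x => ?_, fun θ => ?_⟩
    · have := Submodule.add_mem _ (ha.1 (b x)) (hb.1 x)
      rwa [sub_add_sub_cancel] at this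
    · have := Submodule.add_mem _ (hb.2 (θ ∘ₗ (a : V →ₗ[k] V))) (ha.2 θ)
      rwa [sub_add_sub_cancel] at this
  | inv a _ ha =>
    refine ⟨fun x => ?_, fun θ => ?_⟩
    · have := Submodule.neg_mem _ (ha.1 ((a⁻¹ : V ≃ₗ[k] V) x))
      rwa [neg_sub, show a ((a⁻¹ : V ≃ₗ[k] V) x) = x from a.apply_symm_apply x] at this
    · have := Submodule.neg_mem _ (ha.2 (θ ∘ₗ ((a⁻¹ : V ≃ₗ[k] V) : V →ₗ[k] V)))
      rwa [neg_sub, LinearMap.comp_assoc, show ((a⁻¹ : V ≃ₗ[k] V) : V →ₗ[k] V) ∘ₗ (a : V →ₗ[k] V) =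
        LinearMap.id from LinearMap.ext fun x => a.symm_apply_apply x, LinearMap.comp_id] at this

lemma cSpan_map {g : V ≃ₗ[k] V} (hg : g ∈ K) {x : V} (hx : x ∈ cSpan C) : g x ∈ cSpan C := by
  have := Submodule.add_mem _ ((D.move hg).1 x) hx
  rwa [sub_add_cancel] at this

lemma fSpan_map {g : V ≃ₗ[k] V} (hg : g ∈ K) {θ : Dual k V} (hθ : θ ∈ fSpan C) :
    θ ∘ₗ (g : V →ₗ[k] V) ∈ fSpan C := by
  have := Submodule.add_mem _ ((D.move hg).2 θ) hθ
  rwa [sub_add_cancel] at this

/-- The restriction to the span of centres. -/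
def restr {g : V ≃ₗ[k] V} (hg : g ∈ K) (x : cSpan C) : cSpan C := ⟨g x, D.cSpan_map hg x.2⟩

lemma rad_fix {g : V ≃ₗ[k] V} (hg : g ∈ K) {x : V} (hx : ∀ θ ∈ fSpan C, θ x = 0) : g x = x := by
  have hcl := D.gen hg
  clear hg
  induction hcl using Subgroup.closure_induction with
  | mem t ht =>
    obtain ⟨p, hp, htx⟩ := ht
    rw [htx, hx p.2 (Submodule.subset_span ⟨p, hp, rfl⟩), zero_smul, add_zero]
  | one => rfl
  | mul a b _ _ ha hb => rw [LinearEquiv.mul_apply, hb, ha]
  | inv a _ ha =>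
    conv_lhs => rw [← ha]
    exact a.symm_apply_apply x

/-- Elements trivial modulo the radical are trivial. -/
lemma faithful {g : V ≃ₗ[k] V} (hg : g ∈ K)
    (h : ∀ x ∈ cSpan C, ∀ θ ∈ fSpan C, θ (g x - x) = 0) : g = 1 := by
  let N : Subgroup (V ≃ₗ[k] V) :=
    { carrier := {g | g ∈ K ∧ ∀ x ∈ cSpan C, ∀ θ ∈ fSpan C, θ (g x - x) = 0}
      one_mem' := ⟨one_mem _, fun x _ θ _ => by simp⟩
      mul_mem' := fun {a b} ha hb => ⟨mul_mem ha.1 hb.1, fun x hx θ hθ => by
        rw [LinearEquiv.mul_apply, ← sub_add_sub_cancel (a (b x)) (b x) x, map_add,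
          ha.2 _ (D.cSpan_map hb.1 hx) θ hθ, hb.2 x hx θ hθ, add_zero]⟩
      inv_mem' := fun {a} ha => ⟨inv_mem ha.1, fun x hx θ hθ => by
        have := ha.2 _ (D.cSpan_map (inv_mem ha.1) hx) θ hθ
        rw [show a ((a⁻¹ : V ≃ₗ[k] V) x) = x from a.apply_symm_apply x] at this
        rw [← neg_sub, map_neg, this, neg_zero]⟩ }
  have hN : N = ⊥ := by
    refine D.noUnip N (fun a ha => ha.1) ?_ ?_
    · intro b hb a ha
      refine ⟨mul_mem (mul_mem hb ha.1) (inv_mem hb), fun x hx θ hθ => ?_⟩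
      have := ha.2 _ (D.cSpan_map (inv_mem hb) hx) _ (D.fSpan_map hb hθ)
      rwa [LinearMap.comp_apply, LinearEquiv.coe_coe, map_sub, show b ((b⁻¹ : V ≃ₗ[k] V) x) = x from
        b.apply_symm_apply x] at this
    · intro a ha
      refine ⟨3, LinearMap.ext fun x => ?_⟩
      have h1 := (D.move ha.1).1 x
      simp only [pow_succ, pow_zero, one_mul, Module.End.mul_apply, LinearMap.sub_apply,
        LinearEquiv.coe_coe, LinearMap.id_coe, id_eq, LinearMap.zero_apply]
      exact sub_eq_zero.2 (D.rad_fix ha.1 fun θ hθ => ha.2 _ h1 θ hθ)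
  exact (Subgroup.eq_bot_iff_forall _).1 hN g ⟨hg, h⟩

section Image

variable {W : Type*} [AddCommGroup W] [Module k W] (π : cSpan C →ₗ[k] W)

/-- The group induced on an equivariant quotient of the span of centres. -/
def imageGroup : Subgroup (W ≃ₗ[k] W) where
  carrier := {h | ∃ g, ∃ hg : g ∈ K, ∀ x, h (π x) = π (D.restr hg x)}
  one_mem' := ⟨1, one_mem _, fun x => rfl⟩
  mul_mem' := by
    rintro a b ⟨g, hg, hgx⟩ ⟨g', hg', hgx'⟩
    exact ⟨g * g', mul_mem hg hg', fun x => by rw [LinearEquiv.mul_apply, hgx', hgx]; rfl⟩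
  inv_mem' := by
    rintro a ⟨g, hg, hgx⟩
    refine ⟨g⁻¹, inv_mem hg, fun x => a.injective ?_⟩
    show a (a.symm (π x)) = a (π (D.restr (inv_mem hg) x))
    rw [a.apply_symm_apply, hgx]
    exact congrArg π (Subtype.ext (g.apply_symm_apply _).symm)

variable {π}

lemma exists_induced (hs : Function.Surjective π) (hker : LinearMap.ker π = compRad C)
    {θ : Dual k V} (hθ : θ ∈ fSpan C) : ∃ ψ : Dual k W, ∀ x, ψ (π x) = θ (x : V) := by
  choose sec hsec using hs
  have hwd : ∀ x y, π x = π y → θ (x : V) = θ (y : V) := fun x y e => by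
    have : x - y ∈ compRad C := by rw [← hker, LinearMap.mem_ker, map_sub, e, sub_self]
    have h := mem_compRad.1 this θ hθ
    rwa [Submodule.coe_sub, map_sub, sub_eq_zero] at h
  refine ⟨⟨⟨fun w => θ (sec w : V), fun a b => ?_⟩, fun c a => ?_⟩, fun x => hwd _ _ (hsec _)⟩
  · rw [← map_add, ← Submodule.coe_add]; exact hwd _ _ (by simp [hsec])
  · show θ (sec (c • a) : V) = c • θ (sec a : V)
    rw [← map_smul, ← Submodule.coe_smul]; exact hwd _ _ (by simp [hsec])

lemma tv_image (hs : Function.Surjective π) {u : cSpan C} {θ : Dual k V} {ψ : Dual k W}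
    (h : IsTvIn K (u : V) θ) (hψ : ∀ x, ψ (π x) = θ (x : V)) : IsTvIn (D.imageGroup π) (π u) ψ := by
  have h0 : ψ (π u) = 0 := by rw [hψ]; exact h.1
  refine ⟨h0, fun c => ?_⟩
  obtain ⟨g, hg, hgx⟩ := h.2 c
  refine ⟨LinearEquiv.transvection (f := c • ψ) (v := π u) (by simp [h0]), ⟨g, hg, fun x => ?_⟩,
    fun w => by rw [LinearEquiv.transvection.apply]; simp⟩
  rw [LinearEquiv.transvection.apply, show D.restr hg x = x + (c * θ (x : V)) • u from Subtype.ext (hgx x),
    map_add, map_smul, LinearMap.smul_apply, smul_eq_mul, hψ]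

lemma pi_rad (hker : LinearMap.ker π = compRad C) {x y : cSpan C} (h : π x = π y) :
    ∀ θ ∈ fSpan C, θ ((x : V) - (y : V)) = 0 := by
  have : x - y ∈ compRad C := by rw [← hker, LinearMap.mem_ker, map_sub, h, sub_self]
  exact mem_compRad.1 this

/-- Every element induces one on the quotient. -/
lemma exists_image (hs : Function.Surjective π) (hker : LinearMap.ker π = compRad C)
    {g : V ≃ₗ[k] V} (hg : g ∈ K) :
    ∃ h ∈ D.imageGroup π, ∀ x, h (π x) = π (D.restr hg x) := by
  choose sec hsec using hs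
  have hwd : ∀ {a : V ≃ₗ[k] V} (ha : a ∈ K) {x y : cSpan C}, π x = π y →
      π (D.restr ha x) = π (D.restr ha y) := fun {a} ha {x y} e => by
    have h1 := D.rad_fix ha (D.pi_rad hker e)
    rw [map_sub] at h1
    rw [← sub_eq_zero, ← map_sub, show D.restr ha x - D.restr ha y = x - y from Subtype.ext h1, map_sub,
      e, sub_self]
  let f : ∀ {a : V ≃ₗ[k] V}, a ∈ K → W →ₗ[k] W := fun {a} ha =>
    { toFun := fun w => π (D.restr ha (sec w))
      map_add' := fun v w => by
        rw [← map_add, show D.restr ha (sec v) + D.restr ha (sec w) = D.restr ha (sec v + sec w) from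
          Subtype.ext (map_add a _ _).symm]
        exact hwd ha (by simp [hsec])
      map_smul' := fun c w => by
        rw [RingHom.id_apply, ← map_smul, show c • D.restr ha (sec w) = D.restr ha (c • sec w) from
          Subtype.ext (map_smul a c _).symm]
        exact hwd ha (by simp [hsec]) }
  have hf : ∀ {a : V ≃ₗ[k] V} (ha : a ∈ K) (x : cSpan C), f ha (π x) = π (D.restr ha x) :=
    fun ha x => hwd ha (hsec _)
  have hinv : ∀ {a b : V ≃ₗ[k] V} (ha : a ∈ K) (hb : b ∈ K), (∀ x, a (b x) = x) →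
      (f ha).comp (f hb) = LinearMap.id := fun {a b} ha hb hab => LinearMap.ext fun w => by
    rw [LinearMap.comp_apply, ← hsec w, hf, hf]
    exact congrArg π (Subtype.ext (hab _))
  exact ⟨LinearEquiv.ofLinear (f hg) (f (inv_mem hg))
      (hinv hg (inv_mem hg) g.apply_symm_apply) (hinv (inv_mem hg) hg g.symm_apply_apply),
    ⟨g, hg, hf hg⟩, hf hg⟩

lemma image_unique (hs : Function.Surjective π) {h h' : W ≃ₗ[k] W} {g : V ≃ₗ[k] V} {hg : g ∈ K}
    (e : ∀ x, h (π x) = π (D.restr hg x)) (e' : ∀ x, h' (π x) = π (D.restr hg x)) : h = h' :=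
  LinearEquiv.ext fun w => by obtain ⟨x, rfl⟩ := hs w; rw [e, e']

/-- Two elements inducing the same map are equal. -/
lemma eq_of_image_eq (hker : LinearMap.ker π = compRad C) {g g' : V ≃ₗ[k] V} (hg : g ∈ K)
    (hg' : g' ∈ K) (h : ∀ x, π (D.restr hg x) = π (D.restr hg' x)) : g = g' := by
  rw [← inv_mul_eq_one]
  refine (D.faithful (mul_mem (inv_mem hg) hg') fun x hx θ hθ => ?_).symm ▸ rfl
  have h1 := D.pi_rad hker (h ⟨x, hx⟩) _ (D.fSpan_map (inv_mem hg) hθ)
  rw [LinearMap.comp_apply, LinearEquiv.coe_coe, map_sub] at h1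
  rw [LinearEquiv.mul_apply, map_sub]
  have e : (g⁻¹ : V ≃ₗ[k] V) (g x) = x := g.symm_apply_apply x
  simp only [restr, map_sub] at h1
  rw [e] at h1
  linear_combination -h1

/-- The induced group is irreducible. -/
theorem mcl_image (hs : Function.Surjective π) (hker : LinearMap.ker π = compRad C) :
    McL (D.imageGroup π) := by
  classical
  -- the image of each member
  have hmemC : ∀ p (hp : p ∈ C), ∃ ψ : Dual k W,
      (∀ x, ψ (π x) = p.2 (x : V)) ∧
        IsTvIn (D.imageGroup π) (π ⟨p.1, Submodule.subset_span ⟨p, hp, rfl⟩⟩) ψ := fun p hp => by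
    obtain ⟨ψ, hψ⟩ := D.exists_induced hs hker (θ := p.2) (Submodule.subset_span ⟨p, hp, rfl⟩)
    exact ⟨ψ, hψ, D.tv_image hs (D.mem p hp).2.2 hψ⟩
  have hne1 : ∀ {u : V} {θ : Dual k V} {g : V ≃ₗ[k] V}, u ≠ 0 → θ ≠ 0 →
      (∀ x, g x = x + θ x • u) → g ≠ 1 := by
    intro u θ g hu hθ hgx e
    obtain ⟨y, hy⟩ : ∃ y, θ y ≠ 0 := by
      by_contra hc
      push Not at hc
      exact hθ (LinearMap.ext hc)
    have := hgx y
    rw [e] at this
    exact smul_ne_zero hy hu (left_eq_add.1 (show y = y + θ y • u from this))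
  refine ⟨D.two, ?_, ?_, ?_⟩
  · intro W' hW'
    have hstab : ∀ {a : V ≃ₗ[k] V} (ha : a ∈ K) (x : cSpan C), π x ∈ W' → π (D.restr ha x) ∈ W' :=
      fun ha x hx => by
        obtain ⟨h, hh, hhx⟩ := D.exists_image hs hker ha
        rw [← hhx]; exact hW' h hh _ hx
    -- no transvection of `K` has its centre in `W'` and kills `W'`
    have hnone : ∀ (u : cSpan C) (θ : Dual k V), (u : V) ≠ 0 → θ ≠ 0 → IsTvIn K (u : V) θ →
        π u ∈ W' → (∀ x, π x ∈ W' → θ (x : V) = 0) → False := by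
      intro u θ hu hθ htv huW hkill
      obtain ⟨g, hg, hgx⟩ := htv.exists_one
      let N : Subgroup (V ≃ₗ[k] V) :=
        { carrier := {a | ∃ ha : a ∈ K, (∀ x, π x ∈ W' → π (D.restr ha x) = π x) ∧
              ∀ x, π (D.restr ha x) - π x ∈ W'}
          one_mem' := ⟨one_mem _, fun x _ => rfl, fun x => by
            rw [show D.restr (one_mem K) x = x from rfl, sub_self]; exact zero_mem _⟩
          mul_mem' := by
            rintro a b ⟨ha, ha1, ha2⟩ ⟨hb, hb1, hb2⟩
            refine ⟨mul_mem ha hb, fun x hx => ?_, fun x => ?_⟩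
            · show π (D.restr ha (D.restr hb x)) = π x
              rw [ha1 _ (by rw [hb1 x hx]; exact hx), hb1 x hx]
            · show π (D.restr ha (D.restr hb x)) - π x ∈ W'
              rw [← sub_add_sub_cancel _ (π (D.restr hb x))]
              exact add_mem (ha2 _) (hb2 x)
          inv_mem' := by
            rintro a ⟨ha, ha1, ha2⟩
            have e : ∀ x, D.restr ha (D.restr (inv_mem ha) x) = x := fun x =>
              Subtype.ext (a.apply_symm_apply _)
            refine ⟨inv_mem ha, fun x hx => ?_, fun x => ?_⟩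
            · have := ha1 _ (hstab (inv_mem ha) x hx)
              rw [e] at this
              exact this.symm
            · have := neg_mem (ha2 (D.restr (inv_mem ha) x))
              rwa [e, neg_sub] at this }
      have hgN : g ∈ N := by
        have e : ∀ x : cSpan C, D.restr hg x = x + θ (x : V) • u := fun x => Subtype.ext (hgx x)
        refine ⟨hg, fun x hx => by rw [e, hkill x hx, zero_smul, add_zero], fun x => ?_⟩
        rw [e, map_add, map_smul, add_sub_cancel_left]
        exact W'.smul_mem _ huW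
      refine hne1 hu hθ hgx ((Subgroup.eq_bot_iff_forall _).1 (D.noUnip N (fun a ha => ha.1) ?_ ?_) g hgN)
      · rintro b hb a ⟨ha, ha1, ha2⟩
        refine ⟨mul_mem (mul_mem hb ha) (inv_mem hb), fun x hx => ?_, fun x => ?_⟩
        · obtain ⟨h, -, hhx⟩ := D.exists_image hs hker hb
          show π (D.restr hb (D.restr ha (D.restr (inv_mem hb) x))) = π x
          rw [← hhx, ha1 _ (hstab (inv_mem hb) x hx), hhx]
          exact congrArg π (Subtype.ext (b.apply_symm_apply _))
        · obtain ⟨h, hh, hhx⟩ := D.exists_image hs hker hb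
          have h1 := hW' h hh _ (ha2 (D.restr (inv_mem hb) x))
          rw [map_sub, hhx, hhx] at h1
          rwa [show D.restr hb (D.restr (inv_mem hb) x) = x from Subtype.ext (b.apply_symm_apply _)] at h1
      · rintro a ⟨ha, ha1, ha2⟩
        refine ⟨4, LinearMap.ext fun x => ?_⟩
        have h1 := (D.move ha).1 x
        set y : cSpan C := ⟨a x - x, h1⟩ with hy
        set z := D.restr ha y - y with hz
        have hzW : π z ∈ W' := by rw [hz, map_sub]; exact ha2 y
        have hw : π (D.restr ha z - z) = 0 := by rw [map_sub, ha1 z hzW, sub_self]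
        have hrad : ∀ φ ∈ fSpan C, φ ((D.restr ha z - z : cSpan C) : V) = 0 := fun φ hφ => by
          have := D.pi_rad hker (hw.trans (map_zero π).symm) φ hφ
          rwa [ZeroMemClass.coe_zero, sub_zero] at this
        have h2 := D.rad_fix ha hrad
        simp only [pow_succ, pow_zero, one_mul, Module.End.mul_apply, LinearMap.sub_apply,
          LinearEquiv.coe_coe, LinearMap.id_coe, id_eq, LinearMap.zero_apply]
        simp only [hz, hy, restr, Submodule.coe_sub] at h2
        rw [sub_eq_zero]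
        exact h2
    set C₁ := {p | ∃ hp : p ∈ C, π ⟨p.1, Submodule.subset_span ⟨p, hp, rfl⟩⟩ ∈ W'} with hC₁
    have hout : ∀ p (hp : p ∈ C), p ∉ C₁ → ∀ x, π x ∈ W' → p.2 (x : V) = 0 := by
      intro p hp hp1 x hx
      by_contra hne
      obtain ⟨ψ, hψ, hψtv⟩ := hmemC p hp
      obtain ⟨g, hg, hgx⟩ := hψtv.exists_one
      have h1 := Submodule.sub_mem _ (hW' g hg _ hx) hx
      rw [hgx, add_sub_cancel_left, hψ] at h1
      refine hp1 ⟨hp, ?_⟩
      have := Submodule.smul_mem _ (p.2 (x : V))⁻¹ h1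
      rwa [smul_smul, inv_mul_cancel₀ hne, one_smul] at this
    rcases C₁.eq_empty_or_nonempty with hC | hC
    · left
      refine (Submodule.eq_bot_iff _).2 fun w hw => ?_
      obtain ⟨x, rfl⟩ := hs w
      rw [← LinearMap.mem_ker, hker, mem_compRad]
      intro θ hθ
      exact (Submodule.span_le (p := LinearMap.ker (Dual.eval k V (x : V)))).2 (by
        rintro - ⟨p, hp, rfl⟩
        exact hout p hp (by rw [hC]; simp) x hw) hθ
    · right
      have hall := D.conn C₁ (fun p hp => hp.1) hC fun p hp1 q hq hadj => by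
        obtain ⟨hp, hpW⟩ := hp1
        by_contra hq1
        -- then `p` is inside and `q` outside
        have hqp : q.2 p.1 = 0 := hout q hq hq1 _ hpW
        have hadj' : p.2 q.1 ≠ 0 := hadj.resolve_right (not_not.2 hqp)
        have htv : IsTvIn K p.1 q.2 := IsTvIn.commutator (D.mem q hq).2.2 (D.mem p hp).2.2 hqp hadj'
        exact hnone ⟨p.1, Submodule.subset_span ⟨p, hp, rfl⟩⟩ q.2 (D.mem p hp).1 (D.mem q hq).2.1 htv hpW
          (hout q hq hq1)
      rw [eq_top_iff]
      rintro w -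
      obtain ⟨⟨x, hx⟩, rfl⟩ := hs w
      have : cSpan C ≤ (W'.comap π).map (cSpan C).subtype := Submodule.span_le.2 (by
        rintro - ⟨p, hp, rfl⟩
        obtain ⟨hp', hW⟩ := (hall.symm ▸ hp : p ∈ C₁)
        exact ⟨_, hW, rfl⟩)
      obtain ⟨y, hy, hyx⟩ := this hx
      rwa [show (⟨x, hx⟩ : cSpan C) = y from Subtype.ext hyx.symm]
  · rintro h ⟨g, hg, hgx⟩
    have hcl := D.gen hg
    suffices key : ∃ h' : W ≃ₗ[k] W, h' ∈ Subgroup.closure {g : W ≃ₗ[k] W | ∃ u φ, IsTvIn (D.imageGroup π) u φ ∧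
        ∀ x, g x = x + φ x • u} ∧ ∀ x, h' (π x) = π (D.restr hg x) by
      obtain ⟨h', hh', e⟩ := key
      rwa [D.image_unique hs hgx e]
    clear hgx
    induction hcl using Subgroup.closure_induction with
    | mem t ht =>
      obtain ⟨p, hp, htx⟩ := ht
      obtain ⟨ψ, hψ, hψtv⟩ := hmemC p hp
      obtain ⟨h, hh, hhx⟩ := hψtv.exists_one
      refine ⟨h, Subgroup.subset_closure ⟨_, ψ, hψtv, hhx⟩, fun x => ?_⟩
      rw [hhx, hψ, show D.restr hg x = x + p.2 (x : V) •
        (⟨p.1, Submodule.subset_span ⟨p, hp, rfl⟩⟩ : cSpan C) from Subtype.ext (htx x), map_add, map_smul]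
    | one => exact ⟨1, one_mem _, fun x => rfl⟩
    | mul c d hc hd ihc ihd =>
      have hin : ∀ {a}, a ∈ Subgroup.closure {g | ∃ p ∈ C, ∀ x, g x = x + p.2 x • p.1} → a ∈ K :=
        fun {a} ha => (Subgroup.closure_le K).2 (by
          rintro t ⟨p, hp, htx⟩
          obtain ⟨t', ht', ht'x⟩ := (D.mem p hp).2.2.exists_one
          rwa [show t = t' from LinearEquiv.ext fun y => (htx y).trans (ht'x y).symm]) ha
      obtain ⟨a, ha, hax⟩ := ihc (hin hc)
      obtain ⟨b, hb, hbx⟩ := ihd (hin hd)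
      exact ⟨a * b, mul_mem ha hb, fun x => by rw [LinearEquiv.mul_apply, hbx, hax]; rfl⟩
    | inv c _ ihc =>
      have hcK : c ∈ K := by simpa using inv_mem hg
      obtain ⟨a, ha, hax⟩ := ihc hcK
      refine ⟨a⁻¹, inv_mem ha, fun x => a.injective ?_⟩
      show a (a.symm (π x)) = _
      rw [a.apply_symm_apply, hax]
      exact congrArg π (Subtype.ext (c.apply_symm_apply _).symm)
  · obtain ⟨p, hp⟩ := D.ne
    obtain ⟨ψ, hψ, hψtv⟩ := hmemC p hp
    obtain ⟨g, hg, hgx⟩ := (D.mem p hp).2.2.exists_one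
    have hg1 := hne1 (D.mem p hp).1 (D.mem p hp).2.1 hgx
    refine ⟨_, ψ, fun e => hg1 (D.faithful hg fun x hx θ hθ => ?_),
      fun e => hg1 (D.faithful hg fun x hx θ hθ => ?_), hψtv⟩
    · have h := D.pi_rad hker (e.trans (map_zero π).symm) θ hθ
      simp only [ZeroMemClass.coe_zero, sub_zero] at h
      rw [hgx, add_sub_cancel_left, map_smul, h, smul_zero]
    · rw [hgx, show p.2 x = 0 from (hψ ⟨x, hx⟩).symm.trans (by rw [e]; rfl), zero_smul, add_zero,
        sub_self, map_zero]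

end Image

end TvComp

end CfsgLib.Transpositions
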