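import Cfsg.Agent.Lib.Transpositions.McLSplit

/-!
A component splits the space: duality.
-/
set_option autoImplicit false

open Module

namespace CfsgLib.Transpositions

variable {k : Type*} [Field k] {V : Type*} [AddCommGroup V] [Module k V] [FiniteDimensional k V]
  {K : Subgroup (V ≃ₗ[k] V)} {C : Set (V × Dual k V)}

/-- The contragredient action. -/
def contra (k : Type*) [Field k] (V : Type*) [AddCommGroup V] [Module k V] :
    (V ≃ₗ[k] V) →* (Dual k V ≃ₗ[k] Dual k V) where
  toFun g := g.symm.dualMap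
  map_one' := LinearEquiv.ext fun _ => rfl
  map_mul' _ _ := LinearEquiv.ext fun _ => rfl

lemma contra_apply (g : V ≃ₗ[k] V) (ψ : Dual k V) (x : V) : contra k V g ψ x = ψ (g.symm x) := rfl

/-- The pair attached to a pair in the dual space. -/
def dualPair (p : V × Dual k V) : Dual k V × Dual k (Dual k V) := (p.2, Dual.eval k V p.1)

lemma symm_transvection {g : V ≃ₗ[k] V} {u : V} {φ : Dual k V} {c : k} (h0 : φ u = 0)
    (hg : ∀ x, g x = x + (c * φ x) • u) (x : V) : g.symm x = x - (c * φ x) • u := by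
  rw [LinearEquiv.symm_apply_eq, hg, map_sub, map_smul, h0, smul_zero, sub_zero, sub_add_cancel]

namespace TvComp

variable (D : TvComp K C)
include D

theorem dual : TvComp (K.map (contra k V)) (dualPair '' C) where
  two := D.two
  ne := D.ne.image _
  mem := by
    rintro - ⟨p, hp, rfl⟩
    obtain ⟨h1, h2, h3, h4⟩ := D.mem p hp
    refine ⟨h2, fun e => h1 ?_, h3, fun c => ?_⟩
    · exact (Module.forall_dual_apply_eq_zero_iff k p.1).1 fun ψ => LinearMap.congr_fun e ψ
    · obtain ⟨g, hg, hgx⟩ := h4 (-c)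
      refine ⟨contra k V g, ⟨g, hg, rfl⟩, fun ψ => LinearMap.ext fun x => ?_⟩
      rw [contra_apply, symm_transvection h3 hgx, map_sub, map_smul]
      simp only [dualPair, Dual.eval_apply, LinearMap.add_apply, LinearMap.smul_apply, smul_eq_mul]
      ring
  gen := by
    rintro - ⟨g, hg, rfl⟩
    have hcl := D.gen hg
    have hle : Subgroup.closure {g | ∃ p ∈ C, ∀ x, g x = x + p.2 x • p.1} ≤
        (Subgroup.closure {g : Dual k V ≃ₗ[k] Dual k V | ∃ p ∈ dualPair '' C,
          ∀ x, g x = x + p.2 x • p.1}).comap (contra k V) := by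
      rw [Subgroup.closure_le]
      rintro t ⟨p, hp, htx⟩
      rw [SetLike.mem_coe, Subgroup.mem_comap, ← inv_mem_iff (G := Dual k V ≃ₗ[k] Dual k V)]
      refine Subgroup.subset_closure ⟨_, ⟨p, hp, rfl⟩, fun ψ => LinearMap.ext fun x => ?_⟩
      rw [← map_inv, contra_apply]
      show ψ (t x) = _
      rw [htx, map_add, map_smul]
      simp only [dualPair, Dual.eval_apply, LinearMap.add_apply, LinearMap.smul_apply, smul_eq_mul]
      ring
    exact hle hcl
  conn := by
    intro C'' hsub hne hclosed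
    refine subset_antisymm hsub ?_
    obtain ⟨q₀, hq₀⟩ := hne
    obtain ⟨p₀, hp₀, rfl⟩ := hsub hq₀
    have h := D.conn {p | p ∈ C ∧ dualPair p ∈ C''} (fun p hp => hp.1) ⟨p₀, hp₀, hq₀⟩
      fun p hp q hq hadj => ⟨hq, hclosed _ hp.2 _ ⟨q, hq, rfl⟩ hadj.symm⟩
    rintro - ⟨p, hp, rfl⟩
    exact (h.symm ▸ hp : p ∈ {p | p ∈ C ∧ dualPair p ∈ C''}).2
  noUnip := by
    intro N hN hnorm hnil
    have hbot : K ⊓ N.comap (contra k V) = ⊥ := by
      refine D.noUnip _ inf_le_left ?_ ?_
      · rintro h hh g ⟨hg, hgN⟩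
        refine ⟨K.mul_mem (K.mul_mem hh hg) (K.inv_mem hh), ?_⟩
        show contra k V (h * g * h⁻¹) ∈ N
        rw [map_mul, map_mul, map_inv]
        exact hnorm _ ⟨h, hh, rfl⟩ _ hgN
      · rintro g ⟨-, hgN⟩
        obtain ⟨n, hn⟩ := hnil _ (N.inv_mem (show contra k V g ∈ N from hgN))
        refine ⟨n, LinearMap.ext fun v => (Module.forall_dual_apply_eq_zero_iff k _).1 fun ψ => ?_⟩
        set X : Module.End k V := (g : V →ₗ[k] V) - LinearMap.id with hX
        set Y : Module.End k (Dual k V) :=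
          (((contra k V g)⁻¹ : Dual k V ≃ₗ[k] Dual k V) : Dual k V →ₗ[k] Dual k V) - LinearMap.id with hY
        have key : ∀ (i : ℕ) (ψ : Dual k V) (v : V), ψ ((X ^ i) v) = ((Y ^ i) ψ) v := by
          intro i
          induction i with
          | zero => intro ψ v; rfl
          | succ i ih =>
            intro ψ v
            rw [pow_succ' X, Module.End.mul_apply, pow_succ Y, Module.End.mul_apply, ← ih]
            simp only [hX, hY, LinearMap.sub_apply, LinearEquiv.coe_coe, LinearMap.id_coe, id_eq,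
              map_sub]
            rfl
        have h := key n ψ v
        rw [hn] at h
        simpa using h
    refine (Subgroup.eq_bot_iff_forall _).2 fun a ha => ?_
    obtain ⟨g, hg, rfl⟩ := hN ha
    rw [(Subgroup.eq_bot_iff_forall _).1 hbot g ⟨hg, ha⟩, map_one]

theorem disjoint_rad : cSpan C ⊓ (fSpan C).dualCoannihilator = ⊥ :=
  (Submodule.eq_bot_iff _).2 fun _ hx =>
    D.rad_eq_bot hx.1 ((Submodule.mem_dualCoannihilator _).1 hx.2)

theorem sup_rad : cSpan C ⊔ (fSpan C).dualCoannihilator = ⊤ := by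
  have hinj : Function.Injective ((LinearMap.dualMap (cSpan C).subtype).comp (fSpan C).subtype) := by
    rw [injective_iff_map_eq_zero]
    intro θ hθ
    refine Subtype.ext (D.dual.rad_eq_bot (x := (θ : Dual k V)) ?_ ?_)
    · have : Prod.fst '' (dualPair '' C) = Prod.snd '' C := by rw [← Set.image_comp]; rfl
      unfold cSpan
      rw [this]
      exact θ.2
    · intro Θ hΘ
      refine (Submodule.span_le (p := LinearMap.ker (Dual.eval k (Dual k V) (θ : Dual k V)))).2 ?_ hΘ
      rintro - ⟨-, ⟨p, hp, rfl⟩, rfl⟩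
      exact LinearMap.congr_fun hθ ⟨p.1, Submodule.subset_span ⟨p, hp, rfl⟩⟩
  have h1 := LinearMap.finrank_le_finrank_of_injective hinj
  rw [Subspace.dual_finrank_eq] at h1
  have h2 := Subspace.finrank_add_finrank_dualCoannihilator_eq (fSpan C)
  have h3 := Submodule.finrank_sup_add_finrank_inf_eq (cSpan C) (fSpan C).dualCoannihilator
  rw [D.disjoint_rad, finrank_bot, add_zero] at h3
  refine Submodule.eq_top_of_finrank_eq (le_antisymm (Submodule.finrank_le _) ?_)
  omega

/-- The group induced on the span of centres: special linear or symplectic. -/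
theorem action :
    (∀ f : cSpan C ≃ₗ[k] cSpan C, (∃ g, ∃ hg : g ∈ K, ∀ x : cSpan C, (f x : V) = g x) ↔
        LinearMap.det (f : cSpan C →ₗ[k] cSpan C) = 1) ∨
    ∃ B : LinearMap.BilinForm k (cSpan C), B.IsAlt ∧ B.Nondegenerate ∧
      ∀ f : cSpan C ≃ₗ[k] cSpan C, (∃ g, ∃ hg : g ∈ K, ∀ x : cSpan C, (f x : V) = g x) ↔
        ∀ x y, B (f x) (f y) = B x y := by
  have hbot : compRad C = ⊥ := (Submodule.eq_bot_iff _).2 fun x hx =>
    Subtype.ext (D.rad_eq_bot x.2 (mem_compRad.1 hx))
  have M := D.mcl_image (π := LinearMap.id) (fun x => ⟨x, rfl⟩) (by rw [LinearMap.ker_id, hbot])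
  have hiff : ∀ f : cSpan C ≃ₗ[k] cSpan C, (∃ g, ∃ hg : g ∈ K, ∀ x : cSpan C, (f x : V) = g x) ↔
      f ∈ D.imageGroup LinearMap.id := fun f =>
    exists_congr fun g => exists_congr fun hg => forall_congr' fun x =>
      ⟨fun h => Subtype.ext h, fun h => congrArg Subtype.val h⟩
  rcases M.classification with ⟨-, h⟩ | ⟨B, hA, hnd, -, h⟩
  · exact Or.inl fun f => (hiff f).trans (h f)
  · refine Or.inr ⟨B, hA, ⟨fun x hx => hnd x hx, fun y hy => hnd y fun x => ?_⟩, fun f => (hiff f).trans (h f)⟩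
    rw [← LinearMap.IsAlt.neg hA x y, hy x, neg_zero]

end TvComp

end CfsgLib.Transpositions
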