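import Cfsg.Agent.Lib.Transpositions.McLIrred

/-!
Irreducible groups generated by transvections, odd characteristic: with one functional at each
centre they are symplectic groups.
-/
set_option autoImplicit false

open Module

namespace CfsgLib.Transpositions

variable {k : Type*} [Field k] {V : Type*} [AddCommGroup V] [Module k V] [FiniteDimensional k V]
  {G : Subgroup (V ≃ₗ[k] V)}

namespace McL

variable (M : McL G)
include M

lemma eq_smul_of_finrank_one {x : V} (h1 : finrank k (tvSpace G x) = 1) {ψ θ : Dual k V}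
    (hψ : IsTvIn G x ψ) (hψ0 : ψ ≠ 0) (hθ : IsTvIn G x θ) : ∃ c : k, θ = c • ψ := by
  obtain ⟨c, hc⟩ := (finrank_eq_one_iff_of_nonzero' (⟨ψ, hψ⟩ : tvSpace G x)
    (fun e => hψ0 (congrArg Subtype.val e))).1 h1 ⟨θ, hθ⟩
  exact ⟨c, (congrArg Subtype.val hc).symm⟩

theorem exists_form (h1 : ∀ x, x ≠ 0 → finrank k (tvSpace G x) = 1) :
    ∃ B : LinearMap.BilinForm k V, B.IsAlt ∧ (∀ x, (∀ y, B x y = 0) → x = 0) ∧
      (∀ u, IsTvIn G u (B u)) ∧ ∀ g ∈ G, ∀ x y, B (g x) (g y) = B x y := by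
  classical
  obtain ⟨e, φ, he, hφ0, hφ⟩ := M.ex
  obtain ⟨y₀, hy₀⟩ : ∃ y, φ y ≠ 0 := by
    by_contra hc
    push Not at hc
    exact hφ0 (LinearMap.ext hc)
  set w₀ := (φ y₀)⁻¹ • y₀ with hw₀def
  have hw₀ : φ w₀ = 1 := by simp [w₀, hy₀]
  have ne_of_A : ∀ {u}, φ u = 1 → u ≠ 0 := fun {u} h e' => by simp [e'] at h
  -- the normalised functional at a point of the affine hyperplane
  have hex : ∀ u, ∃ θ : Dual k V, φ u = 1 → IsTvIn G u θ ∧ θ e = -1 := fun u => by
    by_cases h : φ u = 1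
    · obtain ⟨θ, hθ, hθe⟩ := (M.rel_comm he (ne_of_A h)).1 ⟨φ, hφ, by rw [h]; exact one_ne_zero⟩
      refine ⟨(-(θ e)⁻¹) • θ, fun _ => ⟨mem_tvSpace.1 (Submodule.smul_mem _ _ hθ), ?_⟩⟩
      rw [LinearMap.smul_apply, smul_eq_mul, neg_mul, inv_mul_cancel₀ hθe]
    · exact ⟨0, fun h' => absurd h' h⟩
  choose m hm using hex
  have hm0 : ∀ {u}, φ u = 1 → m u ≠ 0 := fun {u} h e' => by
    have := (hm u h).2
    rw [e', LinearMap.zero_apply] at this
    simp at this
  -- not moved means killed by the functional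
  have hrel : ∀ {x z : V} {ψ : Dual k V}, x ≠ 0 → IsTvIn G x ψ → ψ ≠ 0 →
      (TvRel G x z ↔ ψ z ≠ 0) := fun {x z ψ} hx hψ hψ0 => by
    refine ⟨?_, fun h => ⟨ψ, hψ, h⟩⟩
    rintro ⟨θ, hθ, hne⟩ e'
    obtain ⟨c, rfl⟩ := M.eq_smul_of_finrank_one (h1 x hx) hψ hψ0 hθ
    simp [e'] at hne
  -- containment
  have hcont : ∀ {u v : V} {θ₁ θ₂ ψ : Dual k V} {a b : k}, u ≠ 0 → v ≠ 0 → IsTvIn G u θ₁ → θ₁ ≠ 0 →
      IsTvIn G v θ₂ → θ₂ ≠ 0 → a • u + b • v ≠ 0 → IsTvIn G (a • u + b • v) ψ →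
      ∃ c d : k, ψ = c • θ₁ + d • θ₂ := by
    intro u v θ₁ θ₂ ψ a b hu hv h₁ h₁0 h₂ h₂0 hne hψ
    suffices hmem : ψ ∈ Submodule.span k {θ₁, θ₂} by
      obtain ⟨c, d, hcd⟩ := Submodule.mem_span_pair.1 hmem
      exact ⟨c, d, hcd.symm⟩
    rw [← Subspace.dualCoannihilator_dualAnnihilator_eq (W := Submodule.span k {θ₁, θ₂}),
      Submodule.mem_dualAnnihilator]
    intro z hz
    rw [Submodule.mem_dualCoannihilator] at hz
    rcases eq_or_ne z 0 with rfl | hz0
    · exact map_zero _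
    have k1 : ∀ θ, IsTvIn G z θ → θ u = 0 := fun θ hθ => by_contra fun e' =>
      (hrel hu h₁ h₁0).1 ((M.rel_comm hz0 hu).1 ⟨θ, hθ, e'⟩)
        (hz θ₁ (Submodule.subset_span (Set.mem_insert _ _)))
    have k2 : ∀ θ, IsTvIn G z θ → θ v = 0 := fun θ hθ => by_contra fun e' =>
      (hrel hv h₂ h₂0).1 ((M.rel_comm hz0 hv).1 ⟨θ, hθ, e'⟩)
        (hz θ₂ (Submodule.subset_span (Set.mem_insert_of_mem _ rfl)))
    by_contra hne'
    obtain ⟨θ, hθ, hθx⟩ := (M.rel_comm hne hz0).1 ⟨ψ, hψ, hne'⟩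
    simp [k1 θ hθ, k2 θ hθ] at hθx
  -- alternation on the affine hyperplane
  have halt : ∀ {u v : V}, φ u = 1 → φ v = 1 → m u v = -m v u := by
    intro u v hu hv
    rcases eq_or_ne u v with rfl | huv
    · rw [(hm u hu).1.1, neg_zero]
    have hne : (1 : k) • u + (-1 : k) • v ≠ 0 := by simpa [← sub_eq_add_neg, sub_eq_zero] using huv
    obtain ⟨ψ, hψ, hψ0⟩ := (Submodule.ne_bot_iff _).1 (M.isCtr_all hne).2
    obtain ⟨c, d, hcd⟩ := hcont (ne_of_A hu) (ne_of_A hv) (hm u hu).1 (hm0 hu) (hm v hv).1 (hm0 hv)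
      hne (mem_tvSpace.1 hψ)
    have hψe : ψ e = 0 := by
      by_contra hne'
      have := (M.rel_comm hne he).1 ⟨ψ, hψ, hne'⟩
      have h := (hrel he hφ hφ0).1 this
      simp [hu, hv] at h
    rw [hcd] at hψe
    simp [(hm u hu).2, (hm v hv).2] at hψe
    have hd : d = -c := by linear_combination -hψe
    have hself := (mem_tvSpace.1 hψ).1
    rw [hcd, hd] at hself
    simp [(hm u hu).1.1, (hm v hv).1.1] at hself
    have hc : c ≠ 0 := by
      rintro rfl
      exact hψ0 (by rw [hcd, hd]; simp)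
    have : c * (m u v + m v u) = 0 := by linear_combination -hself
    exact eq_neg_of_add_eq_zero_left ((mul_eq_zero.1 this).resolve_left hc)
  -- functionals are determined on the affine hyperplane
  have hext : ∀ f f' : Dual k V, (∀ z, φ z = 1 → f z = f' z) → f = f' := fun f f' h =>
    LinearMap.ext fun x => by
      have h1 := h w₀ hw₀
      have h2 := h (w₀ + (x - φ x • w₀)) (by simp [hw₀])
      simp only [map_add, map_sub, map_smul, smul_eq_mul] at h2
      linear_combination h2 + (φ x - 1) * h1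
  set L₀ : V → Dual k V := fun x => (φ x - 1) • m w₀ + m (w₀ + (x - φ x • w₀)) with hL₀
  have hval : ∀ x z, φ z = 1 → L₀ x z = -m z x := fun x z hz => by
    have hA : φ (w₀ + (x - φ x • w₀)) = 1 := by simp [hw₀]
    simp only [hL₀, LinearMap.add_apply, LinearMap.smul_apply, smul_eq_mul, halt hw₀ hz, halt hA hz,
      map_add, map_sub, map_smul]
    ring
  let B : LinearMap.BilinForm k V :=
    { toFun := L₀
      map_add' := fun x y => hext _ _ fun z hz => by
        rw [hval _ _ hz, LinearMap.add_apply, hval _ _ hz, hval _ _ hz, map_add]; ring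
      map_smul' := fun c x => hext _ _ fun z hz => by
        rw [RingHom.id_apply, hval _ _ hz, LinearMap.smul_apply, hval _ _ hz, map_smul, smul_eq_mul,
          smul_eq_mul]
        ring }
  have hB : ∀ x, B x = L₀ x := fun x => rfl
  have hBA : ∀ {u}, φ u = 1 → B u = m u := fun {u} hu => hext _ _ fun z hz => by
    rw [hB, hval _ _ hz, halt hu hz]
  have hskew : ∀ x y, B x y = -B y x := fun x => by
    have key : B x = -(B.flip x) := hext _ _ fun z hz => by
      show B x z = -(B z x)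
      rw [hB, hval _ _ hz, hBA hz]
    intro y
    rw [key]
    rfl
  have hself : ∀ x, B x x = 0 := fun x => (mul_eq_zero.1
    (show (2 : k) * B x x = 0 by linear_combination hskew x x)).resolve_left M.two
  have hne : ∀ x, x ≠ 0 → B x ≠ 0 := by
    intro x hx hz
    obtain ⟨ψ, hψ, hψ0⟩ := (Submodule.ne_bot_iff _).1 (M.isCtr_all hx).2
    refine hψ0 (hext _ _ fun z hz' => ?_)
    by_contra hne'
    have h := (hrel (ne_of_A hz') (hm z hz').1 (hm0 hz')).1
      ((M.rel_comm hx (ne_of_A hz')).1 ⟨ψ, hψ, hne'⟩)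
    refine h (neg_eq_zero.1 ?_)
    rw [← hval x z hz', ← hB, hz]
    rfl
  have hmemB : ∀ x, IsTvIn G x (B x) := by
    intro x
    rcases eq_or_ne x 0 with rfl | hx
    · rw [map_zero]; exact isTvIn_zero_right _
    obtain ⟨ψ, hψ, hψ0⟩ := (Submodule.ne_bot_iff _).1 (M.isCtr_all hx).2
    have hiff : ∀ z, φ z = 1 → ψ z = 0 → B x z = 0 := fun z hz hψz => by
      rw [hB, hval x z hz, neg_eq_zero]
      by_contra hne'
      exact (hrel hx hψ hψ0).1 ((M.rel_comm (ne_of_A hz) hx).1 ⟨m z, (hm z hz).1, hne'⟩) hψz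
    suffices hc : ∃ c : k, B x = c • ψ by
      obtain ⟨c, hc⟩ := hc
      rw [hc]
      exact mem_tvSpace.1 (Submodule.smul_mem _ _ hψ)
    by_cases hz1 : ∃ z, φ z = 1 ∧ ψ z = 0
    · obtain ⟨z₁, hz₁, hz₁'⟩ := hz1
      -- the kernel of `ψ` is killed by `B x`
      have hker : ∀ y, ψ y = 0 → B x y = 0 := fun y hy => by
        by_cases h0 : φ y = 0
        · have h := hiff (z₁ + y) (by simp [hz₁, h0]) (by simp [hz₁', hy])
          rwa [map_add, hiff z₁ hz₁ hz₁', zero_add] at h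
        · have h := hiff ((φ y)⁻¹ • y) (by simp [h0]) (by simp [hy])
          simpa [h0] using h
      obtain ⟨y, hy⟩ : ∃ y, ψ y ≠ 0 := by
        by_contra hc
        push Not at hc
        exact hψ0 (LinearMap.ext hc)
      refine ⟨B x y / ψ y, LinearMap.ext fun v => ?_⟩
      have h := hker (v - (ψ v / ψ y) • y) (by simp [hy])
      rw [map_sub, map_smul, smul_eq_mul, sub_eq_zero] at h
      rw [h, LinearMap.smul_apply, smul_eq_mul]
      ring
    · push Not at hz1
      -- then `x` is a multiple of `e`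
      have hψφ : ∀ y, φ y = 0 → ψ y = 0 := fun y hy => by
        by_contra hne'
        exact hz1 (w₀ + (-(ψ w₀ / ψ y)) • y) (by simp [hw₀, hy]) (by simp [hne'])
      have hxe : ∃ c : k, x = c • e := by
        refine ⟨-m w₀ x, ?_⟩
        by_contra hne'
        set x' := (1 : k) • x + m w₀ x • e with hx'
        have hx'0 : x' ≠ 0 := fun e' => hne' (by
          rw [hx', one_smul] at e'
          rw [neg_smul]
          exact eq_neg_of_add_eq_zero_left e')
        obtain ⟨θ, hθ, hθ0⟩ := (Submodule.ne_bot_iff _).1 (M.isCtr_all hx'0).2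
        obtain ⟨c, d, hcd⟩ := hcont hx he hψ hψ0 hφ hφ0 hx'0 (mem_tvSpace.1 hθ)
        have hθw : θ w₀ = 0 := by
          by_contra hne''
          have h := (hrel (ne_of_A hw₀) (hm w₀ hw₀).1 (hm0 hw₀)).1
            ((M.rel_comm hx'0 (ne_of_A hw₀)).1 ⟨θ, hθ, hne''⟩)
          refine h ?_
          rw [hx']
          simp [(hm w₀ hw₀).2]
        refine hθ0 (LinearMap.ext fun y => ?_)
        have h0 : θ (y - φ y • w₀) = 0 := by
          rw [hcd]; simp [hψφ (y - φ y • w₀) (by simp [hw₀]), hw₀]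
        rw [map_sub, map_smul, hθw, smul_zero, sub_zero] at h0
        exact h0
      obtain ⟨c, rfl⟩ := hxe
      have hBe : B e = φ := hext _ _ fun z hz => by rw [hB, hval e z hz, (hm z hz).2, neg_neg, hz]
      have hc : c ≠ 0 := fun e' => hx (by simp [e'])
      obtain ⟨a, ha⟩ := M.eq_smul_of_finrank_one (h1 _ hx) hψ hψ0
        (show IsTvIn G (c • e) φ by rw [← mem_tvSpace, tvSpace_smul hc]; exact hφ)
      exact ⟨c * a, by rw [map_smul, hBe, ha, smul_smul]⟩
  have hnd : ∀ x, (∀ y, B x y = 0) → x = 0 := fun x hx =>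
    by_contra fun h => hne x h (LinearMap.ext hx)
  refine ⟨B, hself, hnd, hmemB, fun g hg => ?_⟩
  have hgen := M.gen hg
  clear hg
  induction hgen using Subgroup.closure_induction with
  | mem t ht =>
    obtain ⟨u, θ, hθ, htx⟩ := ht
    intro x y
    rcases eq_or_ne u 0 with rfl | hu
    · simp [htx]
    obtain ⟨c, rfl⟩ := M.eq_smul_of_finrank_one (h1 u hu) (hmemB u) (hne u hu) hθ
    rw [htx, htx]
    simp only [map_add, map_smul, LinearMap.add_apply, LinearMap.smul_apply, smul_eq_mul, hself,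
      hskew x u]
    ring
  | one => intro x y; rfl
  | mul a b _ _ ha hb => intro x y; rw [LinearEquiv.mul_apply, LinearEquiv.mul_apply, ha, hb]
  | inv a _ ha =>
    intro x y
    conv_rhs => rw [← a.apply_symm_apply x, ← a.apply_symm_apply y, ha]
    rfl

/-- Irreducible groups generated by transvections in odd characteristic. -/
theorem classification :
    ((∀ u φ, φ u = 0 → IsTvIn G u φ) ∧ ∀ g : V ≃ₗ[k] V, g ∈ G ↔ LinearMap.det (g : V →ₗ[k] V) = 1) ∨
    ∃ B : LinearMap.BilinForm k V, B.IsAlt ∧ (∀ x, (∀ y, B x y = 0) → x = 0) ∧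
      (∀ x, x ≠ 0 → finrank k (tvSpace G x) = 1) ∧ ∀ g : V ≃ₗ[k] V, g ∈ G ↔ ∀ x y, B (g x) (g y) = B x y := by
  rcases M.dichotomy with hall | h1
  · refine Or.inl ⟨hall, fun g => ⟨fun hg => ?_, det_one_mem_of_transvections hall⟩⟩
    have hgen := M.gen hg
    clear hg
    induction hgen using Subgroup.closure_induction with
    | mem t ht =>
      obtain ⟨u, θ, hθ, htx⟩ := ht
      rw [show t = LinearEquiv.transvection hθ.1 from LinearEquiv.ext fun x => by
        rw [htx, LinearEquiv.transvection.apply]]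
      simp [hθ.1]
    | one => exact LinearMap.det_id
    | mul a b _ _ ha hb =>
      rw [show ((a * b : V ≃ₗ[k] V) : V →ₗ[k] V) = (a : V →ₗ[k] V) ∘ₗ (b : V →ₗ[k] V) from rfl,
        LinearMap.det_comp, ha, hb, mul_one]
    | inv a _ ha =>
      have : LinearMap.det (((a⁻¹ : V ≃ₗ[k] V) : V →ₗ[k] V) ∘ₗ (a : V →ₗ[k] V)) = 1 := by
        rw [show ((a⁻¹ : V ≃ₗ[k] V) : V →ₗ[k] V) ∘ₗ (a : V →ₗ[k] V) = LinearMap.id from
          LinearMap.ext fun x => a.symm_apply_apply x, LinearMap.det_id]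
      rwa [LinearMap.det_comp, ha, mul_one] at this
  · obtain ⟨B, hA, hnd, hmem, hpres⟩ := M.exists_form h1
    exact Or.inr ⟨B, hA, hnd, h1, fun g => ⟨hpres g, fun hg =>
      isometry_mem_of_transvections hA hnd hmem hg⟩⟩

end McL

end CfsgLib.Transpositions
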