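import Cfsg.Agent.Lib.Transpositions.TvBasic

/-!
Irreducible groups generated by transvections, odd characteristic: every point is a centre and
every centre carries either one functional or all functionals.
-/
set_option autoImplicit false

open Module

namespace CfsgLib.Transpositions

variable {k : Type*} [Field k] {V : Type*} [AddCommGroup V] [Module k V]

/-- An irreducible group generated by full transvection lines. -/
structure McL (G : Subgroup (V ≃ₗ[k] V)) : Prop where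
  two : (2 : k) ≠ 0
  irr : ∀ W : Submodule k V, (∀ g ∈ G, ∀ x ∈ W, g x ∈ W) → W = ⊥ ∨ W = ⊤
  gen : G ≤ Subgroup.closure {g | ∃ u φ, IsTvIn G u φ ∧ ∀ x, g x = x + φ x • u}
  ex : ∃ u φ, u ≠ 0 ∧ φ ≠ 0 ∧ IsTvIn G u φ

/-- A centre of a transvection of `G`. -/
def IsCtr (G : Subgroup (V ≃ₗ[k] V)) (u : V) : Prop := u ≠ 0 ∧ tvSpace G u ≠ ⊥

/-- Some transvection with centre `u` moves `w`. -/
def TvRel (G : Subgroup (V ≃ₗ[k] V)) (u w : V) : Prop := ∃ φ, IsTvIn G u φ ∧ φ w ≠ 0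

variable {G : Subgroup (V ≃ₗ[k] V)} {u v w x : V} {φ χ : Dual k V}

lemma isCtr_of_mem (hu : u ≠ 0) (h : IsTvIn G u φ) (hφ : φ ≠ 0) : IsCtr G u :=
  ⟨hu, fun e => hφ (by simpa [e] using (mem_tvSpace.2 h : φ ∈ tvSpace G u))⟩

lemma TvRel.isCtr (hu : u ≠ 0) (h : TvRel G u w) : IsCtr G u := by
  obtain ⟨φ, hφ, hw⟩ := h
  exact isCtr_of_mem hu hφ fun e => hw (by simp [e])

lemma isCtr_smul {a : k} (ha : a ≠ 0) (h : IsCtr G u) : IsCtr G (a • u) :=
  ⟨smul_ne_zero ha h.1, by rw [tvSpace_smul ha]; exact h.2⟩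

lemma map_tvSpace_le {g : V ≃ₗ[k] V} (hg : g ∈ G) (u : V) :
    (tvSpace G u).map (g.symm.dualMap : Dual k V →ₗ[k] Dual k V) ≤ tvSpace G (g u) := by
  rintro - ⟨φ, hφ, rfl⟩
  exact (mem_tvSpace.1 hφ).conj hg

lemma IsCtr.map (h : IsCtr G u) {g : V ≃ₗ[k] V} (hg : g ∈ G) : IsCtr G (g u) := by
  refine ⟨fun e => h.1 (g.map_eq_zero_iff.1 e), fun e => h.2 ?_⟩
  have h1 := map_tvSpace_le hg u
  rwa [e, le_bot_iff, Submodule.map_eq_bot_iff] at h1

variable [FiniteDimensional k V]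

lemma finrank_tvSpace_le {g : V ≃ₗ[k] V} (hg : g ∈ G) (u : V) :
    finrank k (tvSpace G u) ≤ finrank k (tvSpace G (g u)) := by
  rw [← LinearEquiv.finrank_map_eq g.symm.dualMap (tvSpace G u)]
  exact Submodule.finrank_mono (map_tvSpace_le hg u)

namespace McL

variable (M : McL G)
include M

lemma nonzero_ne : ∀ a : k, a ≠ 0 → a ≠ -a := fun a ha e => by
  have : (2 : k) * a = 0 := by linear_combination e
  exact (mul_eq_zero.1 this).elim M.two ha

/-- Three additive functions are simultaneously non-zero somewhere in a subspace. -/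
lemma exists_three {W : Type*} [AddCommGroup W] [Module k W] (S : Submodule k W) (f g h : W →ₗ[k] k)
    (hf : ∃ x ∈ S, f x ≠ 0) (hg : ∃ x ∈ S, g x ≠ 0) (hh : ∃ x ∈ S, h x ≠ 0) :
    ∃ x ∈ S, f x ≠ 0 ∧ g x ≠ 0 ∧ h x ≠ 0 := by
  obtain ⟨x, hxS, hxf, hxg⟩ : ∃ x ∈ S, f x ≠ 0 ∧ g x ≠ 0 := by
    obtain ⟨a, ha, ha'⟩ := hf
    obtain ⟨b, hb, hb'⟩ := hg
    by_cases h1 : g a = 0
    · by_cases h2 : f b = 0
      · exact ⟨a + b, S.add_mem ha hb, by simpa [h2] using ha', by simpa [h1] using hb'⟩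
      · exact ⟨b, hb, h2, hb'⟩
    · exact ⟨a, ha, ha', h1⟩
  by_cases hx : h x ≠ 0
  · exact ⟨x, hxS, hxf, hxg, hx⟩
  push Not at hx
  obtain ⟨y, hyS, hy⟩ := hh
  by_cases hy2 : f y ≠ 0 ∧ g y ≠ 0
  · exact ⟨y, hyS, hy2.1, hy2.2, hy⟩
  have hpm := M.nonzero_ne
  obtain ⟨c, hc, hcf, hcg⟩ : ∃ c : k, c ≠ 0 ∧ f x + c * f y ≠ 0 ∧ g x + c * g y ≠ 0 := by
    by_cases h0 : f y = 0
    · by_cases h1 : g x + 1 * g y = 0
      · refine ⟨-1, by simp, by simp [h0, hxf], fun e => hxg ?_⟩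
        have : (2 : k) * g x = 0 := by linear_combination h1 + e
        exact (mul_eq_zero.1 this).resolve_left M.two
      · exact ⟨1, one_ne_zero, by simp [h0, hxf], h1⟩
    · have h0' : g y = 0 := by tauto
      by_cases h1 : f x + 1 * f y = 0
      · refine ⟨-1, by simp, fun e => hxf ?_, by simp [h0', hxg]⟩
        have : (2 : k) * f x = 0 := by linear_combination h1 + e
        exact (mul_eq_zero.1 this).resolve_left M.two
      · exact ⟨1, one_ne_zero, h1, by simp [h0', hxg]⟩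
  refine ⟨x + c • y, S.add_mem hxS (S.smul_mem c hyS), ?_, ?_, ?_⟩
  · simpa using hcf
  · simpa using hcg
  · simp [hx, hc, hy]

lemma span_stable {S : Set V}
    (hS : ∀ w χ, IsTvIn G w χ → ∀ g ∈ G, (∀ x, g x = x + χ x • w) → ∀ x ∈ S,
      g x ∈ Submodule.span k S) :
    ∀ g ∈ G, ∀ x ∈ Submodule.span k S, g x ∈ Submodule.span k S := by
  intro g hg
  have key : g ∈ G ∧ (Submodule.span k S).map (g : V →ₗ[k] V) = Submodule.span k S := by
    have hcl := M.gen hg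
    clear hg
    induction hcl using Subgroup.closure_induction with
    | mem t ht =>
      obtain ⟨w, χ, hw, htx⟩ := ht
      obtain ⟨t', ht', ht'x⟩ := hw.exists_one
      have : t = t' := LinearEquiv.ext fun x => (htx x).trans (ht'x x).symm
      subst this
      refine ⟨ht', Submodule.eq_of_le_of_finrank_eq ?_ (LinearEquiv.finrank_map_eq t _)⟩
      rw [Submodule.map_span_le]
      exact fun x hx => hS w χ hw t ht' htx x hx
    | one => exact ⟨one_mem _, Submodule.map_id _⟩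
    | mul a b _ _ ha hb =>
      exact ⟨mul_mem ha.1 hb.1, by
        rw [show ((a * b : V ≃ₗ[k] V) : V →ₗ[k] V) = (a : V →ₗ[k] V) ∘ₗ (b : V →ₗ[k] V) from rfl,
          Submodule.map_comp, hb.2, ha.2]⟩
    | inv a _ ha =>
      refine ⟨inv_mem ha.1, ?_⟩
      conv_lhs => rw [← ha.2]
      rw [← Submodule.map_comp, show ((a⁻¹ : V ≃ₗ[k] V) : V →ₗ[k] V) ∘ₗ (a : V →ₗ[k] V) = LinearMap.id
        from LinearMap.ext fun x => a.symm_apply_apply x, Submodule.map_id]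
  intro x hx
  rw [← key.2]
  exact Submodule.mem_map_of_mem hx

lemma span_eq_top {S : Set V} (h0 : ∃ x ∈ S, x ≠ 0)
    (hS : ∀ w χ, IsTvIn G w χ → ∀ g ∈ G, (∀ x, g x = x + χ x • w) → ∀ x ∈ S,
      g x ∈ Submodule.span k S) : Submodule.span k S = ⊤ := by
  refine (M.irr _ (M.span_stable hS)).resolve_left fun e => ?_
  obtain ⟨x, hx, hx0⟩ := h0
  exact hx0 ((Submodule.mem_bot k).1 (e ▸ Submodule.subset_span hx))

/-- No non-zero vector is fixed by all transvections. -/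
lemma exists_mover (hx : x ≠ 0) : ∃ z η, z ≠ 0 ∧ IsTvIn G z η ∧ η x ≠ 0 := by
  by_contra hc
  push Not at hc
  have htop : Submodule.span k ({x} : Set V) = ⊤ := M.span_eq_top ⟨x, rfl, hx⟩ fun w χ hw g _ hgx y hy => by
    rw [Set.mem_singleton_iff] at hy
    subst hy
    rw [hgx]
    rcases eq_or_ne w 0 with rfl | hw0
    · simp [Submodule.mem_span_singleton_self]
    · rw [hc w χ hw0 hw, zero_smul, add_zero]; exact Submodule.mem_span_singleton_self _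
  obtain ⟨u, φ, hu, hφ, h⟩ := M.ex
  refine hφ (LinearMap.ext fun y => ?_)
  obtain ⟨a, rfl⟩ := Submodule.mem_span_singleton.1 (htop ▸ Submodule.mem_top : y ∈ Submodule.span k {x})
  simp [hc u φ hu h]

/-- A centre moved by a centre of maximal rank. -/
lemma swap (hu : u ≠ 0) (hw : IsCtr G w)
    (hmax : finrank k (tvSpace G u) ≤ finrank k (tvSpace G w)) (h : TvRel G u w) : TvRel G w u := by
  by_contra hc
  obtain ⟨φ, hφ, hφw⟩ := h
  have hle : tvSpace G w ≤ tvSpace G u := fun χ hχ => by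
    have h0 : χ u = 0 := by_contra fun h0 => hc ⟨χ, hχ, h0⟩
    exact IsTvIn.commutator hχ hφ h0 hφw
  have : tvSpace G w ≠ tvSpace G u := fun e =>
    hφw (mem_tvSpace.1 (show φ ∈ tvSpace G w by rw [e]; exact hφ)).1
  exact absurd (Submodule.finrank_lt_finrank_of_lt (lt_of_le_of_ne hle this)) (not_lt.2 hmax)

lemma exists_conj (h : TvRel G u w) (h' : TvRel G w u) : ∃ g ∈ G, g w = u := by
  obtain ⟨φ, hφ, hφw⟩ := h
  obtain ⟨χ, hχ, hχu⟩ := h'
  obtain ⟨t, ht, htx⟩ := hφ.2 (φ w)⁻¹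
  obtain ⟨s, hs, hsx⟩ := hχ.2 (-(χ u)⁻¹)
  refine ⟨s * t, mul_mem hs ht, ?_⟩
  rw [LinearEquiv.mul_apply, htx, inv_mul_cancel₀ hφw, one_smul, hsx, map_add, hχ.1, zero_add, neg_mul,
    inv_mul_cancel₀ hχu, neg_one_smul]
  abel

lemma finrank_eq (hu : IsCtr G u) (hw : IsCtr G w) :
    finrank k (tvSpace G u) = finrank k (tvSpace G w) := by
  suffices key : ∀ v, IsCtr G v → ∀ v', IsCtr G v' → finrank k (tvSpace G v') ≤ finrank k (tvSpace G v) from
    le_antisymm (key w hw u hu) (key u hu w hw)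
  have hne : {n | ∃ v, IsCtr G v ∧ finrank k (tvSpace G v) = n}.Nonempty := ⟨_, u, hu, rfl⟩
  have hbdd : BddAbove {n | ∃ v, IsCtr G v ∧ finrank k (tvSpace G v) = n} :=
    ⟨finrank k (Dual k V), by rintro n ⟨v, -, rfl⟩; exact Submodule.finrank_le _⟩
  obtain ⟨v₀, hv₀, hv₀'⟩ := Nat.sSup_mem hne hbdd
  have hmax : ∀ v, IsCtr G v → finrank k (tvSpace G v) ≤ finrank k (tvSpace G v₀) := fun v hv =>
    hv₀' ▸ le_csSup hbdd ⟨v, hv, rfl⟩
  set S := {m | IsCtr G m ∧ finrank k (tvSpace G v₀) ≤ finrank k (tvSpace G m)} with hS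
  have hmap : ∀ g ∈ G, ∀ m ∈ S, g m ∈ S := fun g hg m hm =>
    ⟨hm.1.map hg, hm.2.trans (finrank_tvSpace_le hg m)⟩
  have htop : Submodule.span k S = ⊤ := M.span_eq_top ⟨v₀, ⟨hv₀, le_rfl⟩, hv₀.1⟩
    fun _ _ _ g hg _ x hx => Submodule.subset_span (hmap g hg x hx)
  intro v hv v' hv'
  refine (hmax v' hv').trans ?_
  by_contra hc
  refine hv.2 ((Submodule.eq_bot_iff _).2 fun φ hφ => LinearMap.ext fun y => ?_)
  have hker : Submodule.span k S ≤ LinearMap.ker φ := Submodule.span_le.2 fun m hm => by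
    by_contra hne
    have hr : TvRel G v m := ⟨φ, hφ, hne⟩
    obtain ⟨g, hg, hgm⟩ := M.exists_conj hr (M.swap hv.1 hm.1 ((hmax v hv).trans hm.2) hr)
    exact hc (hgm ▸ (hmap g hg m hm).2)
  exact hker (htop ▸ Submodule.mem_top)

lemma symm (hu : u ≠ 0) (hw : IsCtr G w) (h : TvRel G u w) : TvRel G w u :=
  M.swap hu hw (M.finrank_eq (h.isCtr hu) hw).le h

lemma symm' (hu : IsCtr G u) (hw : IsCtr G w) : TvRel G u w ↔ TvRel G w u :=
  ⟨M.symm hu.1 hw, M.symm hw.1 hu⟩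

lemma not_rel_self : ¬ TvRel G u u := fun ⟨_, hφ, h⟩ => h hφ.1

lemma ctr_line (hw : IsCtr G w) (h : TvRel G u w) (c : k) : IsCtr G (w + c • u) := by
  obtain ⟨φ, hφ, hφw⟩ := h
  obtain ⟨g, hg, hgx⟩ := hφ.2 (c / φ w)
  have := hw.map hg
  rwa [hgx, div_mul_cancel₀ _ hφw] at this

lemma exists_common (hu : IsCtr G u) (hv : IsCtr G v) :
    TvRel G u v ∨ ∃ w, IsCtr G w ∧ TvRel G u w ∧ TvRel G w v := by
  set C := {z | IsCtr G z ∧ (z = u ∨ TvRel G u z ∨ ∃ w, IsCtr G w ∧ TvRel G u w ∧ TvRel G w z)} with hC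
  have hstep : ∀ z ∈ C, ∀ z', IsCtr G z' → TvRel G z z' → z' ∈ C := by
    rintro z ⟨hz, rfl | h | ⟨w, hw, h1, h2⟩⟩ z' hz' hzz'
    · exact ⟨hz', Or.inr (Or.inl hzz')⟩
    · exact ⟨hz', Or.inr (Or.inr ⟨z, hz, h, hzz'⟩)⟩
    by_cases huz : TvRel G u z
    · exact ⟨hz', Or.inr (Or.inr ⟨z, hz, huz, hzz'⟩)⟩
    by_cases hwz' : TvRel G w z'
    · exact ⟨hz', Or.inr (Or.inr ⟨w, hw, h1, hwz'⟩)⟩
    have hzw := M.symm hw.1 hz h2
    have hsum : IsCtr G (w + (1 : k) • z) := M.ctr_line hw hzw 1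
    rw [one_smul] at hsum
    refine ⟨hz', Or.inr (Or.inr ⟨w + z, hsum, ?_, ?_⟩)⟩
    · obtain ⟨φ, hφ, hφw⟩ := h1
      refine ⟨φ, hφ, ?_⟩
      rw [map_add, show φ z = 0 from by_contra fun e => huz ⟨φ, hφ, e⟩, add_zero]
      exact hφw
    · refine M.symm hz'.1 hsum ?_
      obtain ⟨θ, hθ, hθz⟩ := M.symm hz.1 hz' hzz'
      refine ⟨θ, hθ, ?_⟩
      rw [map_add, show θ w = 0 from by_contra fun e => hwz' (M.symm hz'.1 hw ⟨θ, hθ, e⟩), zero_add]
      exact hθz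
  have htop : Submodule.span k C = ⊤ := M.span_eq_top ⟨u, ⟨hu, Or.inl rfl⟩, hu.1⟩
    fun w χ hw g hg hgx z hz => Submodule.subset_span (by
      by_cases h0 : χ z • w = 0
      · rw [hgx, h0, add_zero]; exact hz
      · obtain ⟨hχz, hw0⟩ := smul_ne_zero_iff.1 h0
        have hr : TvRel G w z := ⟨χ, hw, hχz⟩
        have hctr := hz.1.map hg
        refine hstep z hz _ hctr ?_
        obtain ⟨φ, hφ, hφw⟩ := M.symm hw0 hz.1 hr
        refine ⟨φ, hφ, ?_⟩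
        rw [hgx, map_add, hφ.1, zero_add, map_smul, smul_eq_mul]
        exact mul_ne_zero hχz hφw)
  obtain ⟨z, hz, hzv⟩ : ∃ z ∈ C, TvRel G v z := by
    by_contra hc
    push Not at hc
    refine hv.2 ((Submodule.eq_bot_iff _).2 fun φ hφ => LinearMap.ext fun y => ?_)
    exact (Submodule.span_le.2 fun z hz => by_contra fun e => hc z hz ⟨φ, hφ, e⟩ :
      Submodule.span k C ≤ LinearMap.ker φ) (htop ▸ Submodule.mem_top)
  obtain ⟨-, h | h | h⟩ := hstep z hz v hv (M.symm hv.1 hz.1 hzv)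
  · rw [h] at hzv ⊢
    exact Or.inr ⟨z, hz.1, hzv, M.symm hu.1 hz.1 hzv⟩
  · exact Or.inl h
  · exact Or.inr h

lemma ctr_add_good (hu : IsCtr G u) (hv : IsCtr G v) (huv : ¬ TvRel G v u) (hw : IsCtr G w)
    (h1 : TvRel G u w) (h2 : TvRel G v w) (hχ : IsTvIn G w χ) (hx : χ (u + v) ≠ 0) :
    IsCtr G (u + v) := by
  have hu' : IsCtr G (u + (1 : k) • w) := M.ctr_line hu (M.symm hu.1 hw h1) 1
  obtain ⟨θ, hθ, hθw⟩ := h2
  have hvu : TvRel G v (u + (1 : k) • w) := by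
    refine ⟨θ, hθ, ?_⟩
    rw [map_add, show θ u = 0 from by_contra fun e => huv ⟨θ, hθ, e⟩, zero_add, one_smul]
    exact hθw
  have hs := M.ctr_line hu' hvu 1
  obtain ⟨g, hg, hgx⟩ := hχ.2 (-(χ (u + v))⁻¹)
  have h3 := hs.map hg
  have e : g (u + (1 : k) • w + (1 : k) • v) = u + v := by
    rw [hgx, show u + (1 : k) • w + (1 : k) • v = (u + v) + w by module, map_add _ (u + v), hχ.1,
      add_zero, neg_mul, inv_mul_cancel₀ hx, neg_one_smul]
    abel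
  rwa [e] at h3

lemma ctr_add_aux (hu : IsCtr G u) (hv : IsCtr G v) (huv : ¬ TvRel G v u) (hw : IsCtr G w)
    (h1 : TvRel G u w) (h2 : TvRel G v w) {z : V} {η : Dual k V} (hz : z ≠ 0) (hη : IsTvIn G z η)
    (hx : η (u + v) ≠ 0) (hηu : η u ≠ 0) : IsCtr G (u + v) := by
  have hzc : IsCtr G z := isCtr_of_mem hz hη fun e => hηu (by simp [e])
  have huz : TvRel G u z := M.symm hz hu ⟨η, hη, hηu⟩
  by_cases hvz : TvRel G v z
  · exact M.ctr_add_good hu hv huv hzc huz hvz hη hx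
  have hηv : η v = 0 := by_contra fun e => hvz (M.symm hz hv ⟨η, hη, e⟩)
  have hθz : ∀ θ, IsTvIn G v θ → θ z = 0 := fun θ hθ => by_contra fun e => hvz ⟨θ, hθ, e⟩
  have hθu : ∀ θ, IsTvIn G v θ → θ u = 0 := fun θ hθ => by_contra fun e => huv ⟨θ, hθ, e⟩
  obtain ⟨w', hw', h1', h2', hwz⟩ :
      ∃ w', IsCtr G w' ∧ TvRel G u w' ∧ TvRel G v w' ∧ TvRel G w' z := by
    by_cases hwz : TvRel G w z
    · exact ⟨w, hw, h1, h2, hwz⟩
    have hc : IsCtr G (w + (1 : k) • u) := M.ctr_line hw h1 1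
    rw [one_smul] at hc
    obtain ⟨φ, hφ, hφw⟩ := h1
    obtain ⟨θ, hθ, hθw⟩ := h2
    refine ⟨w + u, hc, ⟨φ, hφ, by rwa [map_add, hφ.1, add_zero]⟩,
      ⟨θ, hθ, by rwa [map_add, hθu θ hθ, add_zero]⟩, M.symm hz hc ⟨η, hη, ?_⟩⟩
    rw [map_add, show η w = 0 from by_contra fun e => hwz (M.symm hz hw ⟨η, hη, e⟩), zero_add]
    exact hηu
  by_cases hgood : ∃ χ, IsTvIn G w' χ ∧ χ (u + v) ≠ 0
  · obtain ⟨χ, hχ, hχx⟩ := hgood
    exact M.ctr_add_good hu hv huv hw' h1' h2' hχ hχx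
  push Not at hgood
  obtain ⟨χa, hχa, hχaz⟩ := hwz
  obtain ⟨χb, hχb, hχbv⟩ := M.symm hv.1 hw' h2'
  obtain ⟨χ, hχ, hχz, hχv, -⟩ := M.exists_three (tvSpace G w') (Dual.eval k V z) (Dual.eval k V v)
    (Dual.eval k V v) ⟨χa, hχa, hχaz⟩ ⟨χb, hχb, hχbv⟩ ⟨χb, hχb, hχbv⟩
  simp only [Dual.eval_apply] at hχz hχv
  obtain ⟨c, hc, hcu⟩ : ∃ c : k, c ≠ 0 ∧ χ u + c * χ z ≠ 0 := by
    by_cases h : χ u + 1 * χ z = 0
    · refine ⟨-1, by simp, fun e => hχz ?_⟩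
      have : (2 : k) * χ z = 0 := by linear_combination h - e
      exact (mul_eq_zero.1 this).resolve_left M.two
    · exact ⟨1, one_ne_zero, h⟩
  obtain ⟨g, hg, hgx⟩ := hη.2 (c / η u)
  have hgu : g u = u + c • z := by rw [hgx, div_mul_cancel₀ _ hηu]
  have hgv : g v = v := by rw [hgx, hηv, mul_zero, zero_smul, add_zero]
  have hu' : IsCtr G (g u) := hu.map hg
  have hu'w : TvRel G w' (g u) := ⟨χ, hχ, by rw [hgu, map_add, map_smul, smul_eq_mul]; exact hcu⟩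
  have huv' : ¬ TvRel G v (g u) := by
    rintro ⟨θ, hθ, hne⟩
    rw [hgu, map_add, map_smul, hθu θ hθ, hθz θ hθ] at hne
    simp at hne
  have hfin := M.ctr_add_good hu' hv huv' hw' (M.symm hw'.1 hu' hu'w) h2' hχ (by
    rw [hgu, show u + c • z + v = (u + v) + c • z by abel, map_add _ (u + v), hgood χ hχ, map_smul,
      zero_add, smul_eq_mul]
    exact mul_ne_zero hc hχz)
  have h3 := hfin.map (inv_mem hg)
  have e : (g⁻¹ : V ≃ₗ[k] V) (g u + v) = u + v := by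
    conv_lhs => rw [← hgv, ← map_add]
    exact g.symm_apply_apply _
  rwa [e] at h3

lemma ctr_add (hu : IsCtr G u) (hv : IsCtr G v) (hne : u + v ≠ 0) : IsCtr G (u + v) := by
  by_cases h : TvRel G v u
  · have := M.ctr_line hu h 1
    rwa [one_smul] at this
  rcases M.exists_common hu hv with h' | ⟨w, hw, h1, h2⟩
  · exact absurd (M.symm hu.1 hv h') h
  obtain ⟨z, η, hz, hη, hηx⟩ := M.exists_mover hne
  have h2' : TvRel G v w := M.symm hw.1 hv h2
  by_cases hηu : η u = 0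
  · rw [add_comm]
    refine M.ctr_add_aux hv hu (fun e => h (M.symm hu.1 hv e)) hw h2' h1 hz hη
      (by rwa [add_comm]) fun e => hηx (by rw [map_add, hηu, e, add_zero])
  · exact M.ctr_add_aux hu hv h hw h1 h2' hz hη hηx hηu

/-- Every non-zero vector is a centre. -/
theorem isCtr_all (hx : x ≠ 0) : IsCtr G x := by
  obtain ⟨u₀, φ₀, hu₀, hφ₀, h₀⟩ := M.ex
  let S : Submodule k V :=
    { carrier := {x | x ≠ 0 → IsCtr G x}
      zero_mem' := fun h => absurd rfl h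
      add_mem' := fun {a b} ha hb hab => by
        rcases eq_or_ne a 0 with rfl | ha0
        · simpa using hb (by simpa using hab)
        rcases eq_or_ne b 0 with rfl | hb0
        · simpa using ha (by simpa using hab)
        exact M.ctr_add (ha ha0) (hb hb0) hab
      smul_mem' := fun c a ha hca => by
        obtain ⟨hc, ha0⟩ := smul_ne_zero_iff.1 hca
        exact isCtr_smul hc (ha ha0) }
  have htop : Submodule.span k {m | IsCtr G m} = ⊤ :=
    M.span_eq_top ⟨u₀, isCtr_of_mem hu₀ h₀ hφ₀, hu₀⟩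
      fun _ _ _ g hg _ y hy => Submodule.subset_span (IsCtr.map hy hg)
  have : x ∈ S := (Submodule.span_le.2 (fun m hm _ => hm) : Submodule.span k {m | IsCtr G m} ≤ S)
    (htop ▸ Submodule.mem_top)
  exact this hx

lemma rel_comm (hu : u ≠ 0) (hw : w ≠ 0) : TvRel G u w ↔ TvRel G w u :=
  M.symm' (M.isCtr_all hu) (M.isCtr_all hw)

/-- In a related pair the functionals of the second centre killing the first belong to the line
except possibly the first centre. -/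
lemma restrict_line (hu : u ≠ 0) (hw : w ≠ 0) (h : TvRel G u w) (hχ : IsTvIn G w χ) (hχu : χ u = 0)
    {c : k} (hc : c ≠ 0) : IsTvIn G (u + c • w) χ := by
  obtain ⟨φ, hφ, hφw⟩ := h
  obtain ⟨χ₁, hχ₁, hχ₁u⟩ := M.symm hu (M.isCtr_all hw) ⟨φ, hφ, hφw⟩
  obtain ⟨g, hg, hgx⟩ := hχ₁.2 (c / χ₁ u)
  have hχ₂ : IsTvIn G w (χ₁ + χ) := Submodule.add_mem _ (mem_tvSpace.2 hχ₁) hχ
  obtain ⟨g', hg', hgx'⟩ := hχ₂.2 (c / χ₁ u)
  have e1 : g u = u + c • w := by rw [hgx, div_mul_cancel₀ _ hχ₁u]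
  have e2 : g' u = u + c • w := by
    rw [hgx', LinearMap.add_apply, hχu, add_zero, div_mul_cancel₀ _ hχ₁u]
  have c1 := mem_tvSpace.2 (hφ.conj hg)
  have c2 := mem_tvSpace.2 (hφ.conj hg')
  rw [e1] at c1
  rw [e2] at c2
  have inv : ∀ {ψ : Dual k V} {s : V ≃ₗ[k] V}, ψ w = 0 → (∀ x, s x = x + (c / χ₁ u * ψ x) • w) →
      ∀ y, φ (s.symm y) = φ y - c / χ₁ u * ψ y * φ w := fun {ψ s} hψ hs y => by
    have h1 := hs (s.symm y)
    rw [s.apply_symm_apply] at h1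
    have h2 : ψ y = ψ (s.symm y) := by
      conv_lhs => rw [h1, map_add, map_smul, hψ, smul_zero, add_zero]
    conv_rhs => rw [h2]
    conv_rhs => enter [1]; rw [h1]
    rw [map_add, map_smul, smul_eq_mul]
    ring
  have hdiff := Submodule.sub_mem _ c1 c2
  have : χ = (χ₁ u / (c * φ w)) • (φ ∘ₗ (g.symm : V →ₗ[k] V) - φ ∘ₗ (g'.symm : V →ₗ[k] V)) := by
    ext y
    simp only [LinearMap.smul_apply, LinearMap.sub_apply, LinearMap.comp_apply, LinearEquiv.coe_coe,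
      inv hχ₁.1 hgx, inv hχ₂.1 hgx', LinearMap.add_apply, smul_eq_mul]
    field_simp
    ring
  rw [this]
  exact mem_tvSpace.1 (Submodule.smul_mem _ _ hdiff)

lemma restrict (hu : u ≠ 0) (hw : w ≠ 0) (h : TvRel G u w) (hχ : IsTvIn G w χ) (hχu : χ u = 0) :
    IsTvIn G u χ := by
  have h1 := M.restrict_line hu hw h hχ hχu one_ne_zero
  rw [one_smul] at h1
  obtain ⟨φ, hφ, hφw⟩ := h
  obtain ⟨χ₁, hχ₁, hχ₁u⟩ := M.symm hu (M.isCtr_all hw) ⟨φ, hφ, hφw⟩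
  have hrel : TvRel G w (u + w) := ⟨χ₁, hχ₁, by rwa [map_add, hχ₁.1, add_zero]⟩
  have hne : u + w ≠ 0 := fun e => hχ₁u (by
    have := congrArg χ₁ e
    rwa [map_add, hχ₁.1, add_zero, map_zero] at this)
  have h2 := M.restrict_line hw hne hrel h1 hχ.1 (c := -1) (by simp)
  rw [show w + (-1 : k) • (u + w) = (-1 : k) • u by module] at h2
  rw [← mem_tvSpace, ← tvSpace_smul (a := (-1 : k)) (by simp)]
  exact h2

/-- The dichotomy: one functional or all of them. -/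
theorem dichotomy :
    (∀ x φ, φ x = 0 → IsTvIn G x φ) ∨ ∀ x, x ≠ 0 → finrank k (tvSpace G x) = 1 := by
  by_cases hall : ∀ x, x ≠ 0 → finrank k (tvSpace G x) = 1
  · exact Or.inr hall
  refine Or.inl fun x ψ hψ => ?_
  rcases eq_or_ne x 0 with rfl | hx0
  · exact ⟨by simp, fun c => ⟨1, one_mem _, by simp⟩⟩
  by_contra hnot
  push Not at hall
  obtain ⟨x₁, hx₁, hd1⟩ := hall
  have hd : 2 ≤ finrank k (tvSpace G x) := by
    rw [M.finrank_eq (M.isCtr_all hx0) (M.isCtr_all hx₁)]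
    have : finrank k (tvSpace G x₁) ≠ 0 := fun e =>
      (M.isCtr_all hx₁).2 (Submodule.finrank_eq_zero.1 e)
    omega
  obtain ⟨l, hl0, hl⟩ : ∃ l : V, l ≠ 0 ∧ l ∉ Submodule.span k {x} ∧ ∀ φ ∈ tvSpace G x, φ l = 0 := by
    by_contra hc
    push Not at hc
    have hco : (tvSpace G x).dualCoannihilator ≤ Submodule.span k {x} := by
      intro l hl
      rw [Submodule.mem_dualCoannihilator] at hl
      rcases eq_or_ne l 0 with rfl | hl0
      · exact zero_mem _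
      · by_contra hm
        obtain ⟨φ, hφ, hne⟩ := hc l hl0 hm
        exact hne (hl φ hφ)
    refine hnot (mem_tvSpace.1 ?_)
    rw [← Subspace.dualCoannihilator_dualAnnihilator_eq (W := tvSpace G x), Submodule.mem_dualAnnihilator]
    intro y hy
    obtain ⟨a, rfl⟩ := Submodule.mem_span_singleton.1 (hco hy)
    rw [map_smul, hψ, smul_zero]
  obtain ⟨hlx, hlk⟩ := hl
  have hxl : ¬ TvRel G x l := fun ⟨φ, hφ, e⟩ => e (hlk φ hφ)
  rcases M.exists_common (M.isCtr_all hx0) (M.isCtr_all hl0) with h | ⟨w, hw, h1, h2⟩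
  · exact hxl h
  obtain ⟨φ, hφ, hφw⟩ := h1
  obtain ⟨χ, hχ, hχx⟩ := (M.rel_comm hx0 hw.1).1 ⟨φ, hφ, hφw⟩
  obtain ⟨η, hη, hηw, hη0⟩ : ∃ η ∈ tvSpace G x, η w = 0 ∧ η ≠ 0 := by
    by_contra hc
    push Not at hc
    have hinj : Function.Injective ((Dual.eval k V w).comp (tvSpace G x).subtype) := by
      rw [injective_iff_map_eq_zero]
      intro η hη
      exact Subtype.ext (hc η η.2 (by simpa using hη))
    have := LinearMap.finrank_le_finrank_of_injective hinj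
    rw [Module.finrank_self] at this
    omega
  have hηw' : IsTvIn G w η := M.restrict hw.1 hx0 ((M.rel_comm hx0 hw.1).1 ⟨φ, hφ, hφw⟩) hη hηw
  -- a common zero of the functionals of `x` and `χ`
  set l' := l - (χ l / χ x) • x with hl'
  have hl'k : ∀ θ ∈ tvSpace G x, θ l' = 0 := fun θ hθ => by
    rw [hl', map_sub, map_smul, hlk θ hθ, (mem_tvSpace.1 hθ).1, smul_zero, sub_zero]
  have hl'χ : χ l' = 0 := by
    rw [hl', map_sub, map_smul, smul_eq_mul, div_mul_cancel₀ _ hχx, sub_self]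
  have hl'0 : l' ≠ 0 := by
    rw [hl', sub_ne_zero]
    intro e
    exact hlx (Submodule.mem_span_singleton.2 ⟨χ l / χ x, e.symm⟩)
  obtain ⟨θ, hθ, hθ0⟩ : ∃ θ ∈ tvSpace G l', θ ≠ 0 := by
    by_contra hc
    push Not at hc
    exact (M.isCtr_all hl'0).2 ((Submodule.eq_bot_iff _).2 hc)
  have hkill : ∀ z, φ z ≠ 0 → χ z ≠ 0 → η z ≠ 0 → θ z = 0 := by
    intro z hzφ hzχ hzη
    have hz0 : z ≠ 0 := fun e => hzφ (by simp [e])
    by_contra hne
    obtain ⟨ψz, hψz, hψzl⟩ := (M.rel_comm hl'0 hz0).1 ⟨θ, hθ, hne⟩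
    refine hψzl ?_
    set χ₀ := χ - (χ z / η z) • η with hχ₀
    have hχ₀w : IsTvIn G w χ₀ :=
      mem_tvSpace.1 (Submodule.sub_mem _ (mem_tvSpace.2 hχ) (Submodule.smul_mem _ _ hηw'))
    have hχ₀z : χ₀ z = 0 := by
      rw [hχ₀, LinearMap.sub_apply, LinearMap.smul_apply, smul_eq_mul, div_mul_cancel₀ _ hzη, sub_self]
    have hzw : TvRel G z w := (M.rel_comm hw.1 hz0).1 ⟨χ, hχ, hzχ⟩
    have hχ₀Z : IsTvIn G z χ₀ := M.restrict hz0 hw.1 hzw hχ₀w hχ₀z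
    have hχ₀x : χ₀ x = χ x := by simp [hχ₀, (mem_tvSpace.1 hη).1]
    set ψ₁ := ψz - (ψz x / χ x) • χ₀ with hψ₁
    have hψ₁z : IsTvIn G z ψ₁ :=
      mem_tvSpace.1 (Submodule.sub_mem _ (mem_tvSpace.2 hψz) (Submodule.smul_mem _ _ hχ₀Z))
    have hψ₁x : ψ₁ x = 0 := by
      rw [hψ₁, LinearMap.sub_apply, LinearMap.smul_apply, smul_eq_mul, hχ₀x, div_mul_cancel₀ _ hχx,
        sub_self]
    have hψ₁mem : ψ₁ ∈ tvSpace G x := M.restrict hx0 hz0 ⟨φ, hφ, hzφ⟩ hψ₁z hψ₁x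
    have h1 := hl'k ψ₁ hψ₁mem
    have hχ₀l : χ₀ l' = 0 := by simp [hχ₀, hl'χ, hl'k η hη]
    simpa [hψ₁, hχ₀l] using h1
  obtain ⟨y, hy⟩ : ∃ y, η y ≠ 0 := by
    by_contra hc
    push Not at hc
    exact hη0 (LinearMap.ext hc)
  set e1 := (φ w)⁻¹ • w
  set e2 := (χ x)⁻¹ • x
  set e3' := (η y)⁻¹ • y
  set e3 := e3' - φ e3' • e1 - χ e3' • e2
  have v1 : φ e1 = 1 ∧ χ e1 = 0 ∧ η e1 = 0 := by simp [e1, hφw, hχ.1, hηw]
  have v2 : φ e2 = 0 ∧ χ e2 = 1 ∧ η e2 = 0 := by simp [e2, hχx, hφ.1, (mem_tvSpace.1 hη).1]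
  have v3 : φ e3 = 0 ∧ χ e3 = 0 ∧ η e3 = 1 := by
    simp [e3, v1.1, v1.2.1, v1.2.2, v2.1, v2.2.1, v2.2.2, e3', hy]
  have hval : ∀ a b c : k, ∀ r, φ r = 0 → χ r = 0 → η r = 0 → a ≠ 0 → b ≠ 0 → c ≠ 0 →
      a * θ e1 + b * θ e2 + c * θ e3 + θ r = 0 := by
    intro a b c r r1 r2 r3 ha hb hc
    have := hkill (a • e1 + b • e2 + c • e3 + r)
      (by simp [v1.1, v2.1, v3.1, r1, ha]) (by simp [v1.2.1, v2.2.1, v3.2.1, r2, hb])
      (by simp [v1.2.2, v2.2.2, v3.2.2, r3, hc])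
    simpa using this
  have n1 : (-1 : k) ≠ 0 := by simp
  have o : (1 : k) ≠ 0 := one_ne_zero
  have b0 := hval 1 1 1 0 (map_zero _) (map_zero _) (map_zero _) o o o
  have b1 := hval (-1) 1 1 0 (map_zero _) (map_zero _) (map_zero _) n1 o o
  have b2 := hval 1 (-1) 1 0 (map_zero _) (map_zero _) (map_zero _) o n1 o
  have b3 := hval 1 1 (-1) 0 (map_zero _) (map_zero _) (map_zero _) o o n1
  rw [map_zero] at b0 b1 b2 b3
  have t1 : θ e1 = 0 :=
    (mul_eq_zero.1 (show (2 : k) * θ e1 = 0 by linear_combination b0 - b1)).resolve_left M.two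
  have t2 : θ e2 = 0 :=
    (mul_eq_zero.1 (show (2 : k) * θ e2 = 0 by linear_combination b0 - b2)).resolve_left M.two
  have t3 : θ e3 = 0 :=
    (mul_eq_zero.1 (show (2 : k) * θ e3 = 0 by linear_combination b0 - b3)).resolve_left M.two
  refine hθ0 (LinearMap.ext fun z => ?_)
  have := hval 1 1 1 (z - φ z • e1 - χ z • e2 - η z • e3)
    (by simp [v1.1, v2.1, v3.1]) (by simp [v1.2.1, v2.2.1, v3.2.1]) (by simp [v1.2.2, v2.2.2, v3.2.2]) o o o
  simpa [t1, t2, t3] using this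

end McL

end CfsgLib.Transpositions
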