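import Cfsg.Agent.Lib.Transpositions.McLDual
import Cfsg.Prelude.Def_Solvable

/-!
McLaughlin's theorem over a prime field of odd order.
-/
set_option autoImplicit false

open Module

namespace CfsgLib.Transpositions

variable {p : ℕ} [Fact p.Prime] {V : Type*} [AddCommGroup V] [Module (ZMod p) V] [Finite V]

/-- An element of order `p` fixing a hyperplane pointwise is a transvection. -/
lemma exists_pair_of_transvection (t : V ≃ₗ[ZMod p] V) (ho : orderOf t = p)
    (hr : finrank (ZMod p) ↥(LinearMap.ker ((t : V →ₗ[ZMod p] V) - LinearMap.id)) + 1 =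
      finrank (ZMod p) V) :
    ∃ (u : V) (φ : Dual (ZMod p) V), u ≠ 0 ∧ φ ≠ 0 ∧ φ u = 0 ∧ ∀ x, t x = x + φ x • u := by
  set A : V →ₗ[ZMod p] V := (t : V →ₗ[ZMod p] V) - LinearMap.id with hA
  have hA' : ∀ x, A x = t x - x := fun x => rfl
  have hdim := LinearMap.finrank_range_add_finrank_ker A
  obtain ⟨⟨u, hu⟩, hu0, hspan⟩ :=
    finrank_eq_one_iff'.1 (show finrank (ZMod p) ↥(LinearMap.range A) = 1 by omega)
  have hu0' : u ≠ 0 := fun e => hu0 (Subtype.ext e)
  have hex : ∀ x, ∃ c : ZMod p, c • u = A x := fun x => by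
    obtain ⟨c, hc⟩ := hspan ⟨A x, x, rfl⟩
    exact ⟨c, congrArg Subtype.val hc⟩
  choose φ₀ hφ₀ using hex
  let φ : Dual (ZMod p) V :=
    { toFun := φ₀
      map_add' := fun x y => smul_left_injective _ hu0' (by
        simp only [add_smul, hφ₀, map_add])
      map_smul' := fun c x => smul_left_injective _ hu0' (by
        simp only [RingHom.id_apply, smul_eq_mul, mul_smul, hφ₀, map_smul]) }
  have hφ : ∀ x, φ x = φ₀ x := fun x => rfl
  have ht : ∀ x, t x = x + φ x • u := fun x => by rw [hφ, hφ₀, hA', add_sub_cancel]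
  refine ⟨u, φ, hu0', fun e => ?_, ?_, ht⟩
  · have h1 : t = 1 := LinearEquiv.ext fun x => by rw [ht, e]; simp
    rw [h1, orderOf_one] at ho
    exact (Fact.out : p.Prime).one_lt.ne' ho.symm
  · set a := φ u with ha
    have hpow : ∀ n : ℕ, (t ^ n) u = (1 + a) ^ n • u := fun n => by
      induction n with
      | zero => simp
      | succ n ih =>
        rw [pow_succ, LinearEquiv.mul_apply, ht, ← ha, map_add, map_smul, ih, pow_succ]
        module
    have h1 := hpow p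
    rw [orderOf_dvd_iff_pow_eq_one.1 (dvd_of_eq ho), ZMod.pow_card, LinearEquiv.coe_one, id_eq, add_smul,
      one_smul, left_eq_add] at h1
    exact (smul_eq_zero.1 h1).resolve_right hu0'

lemma pow_transvection_apply {t : V ≃ₗ[ZMod p] V} {u : V} {φ : Dual (ZMod p) V} (h0 : φ u = 0)
    (ht : ∀ x, t x = x + φ x • u) (n : ℕ) (x : V) : (t ^ n) x = x + ((n : ZMod p) * φ x) • u := by
  induction n generalizing x with
  | zero => simp
  | succ n ih =>
    rw [pow_succ, LinearEquiv.mul_apply, ih, ht, map_add, map_smul, h0, smul_zero, add_zero,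
      Nat.cast_succ]
    module

lemma isTvIn_of_mem {K : Subgroup (V ≃ₗ[ZMod p] V)} {t : V ≃ₗ[ZMod p] V} {u : V}
    {φ : Dual (ZMod p) V} (hK : t ∈ K) (h0 : φ u = 0) (ht : ∀ x, t x = x + φ x • u) :
    IsTvIn K u φ :=
  ⟨h0, fun c => ⟨t ^ c.val, pow_mem hK _, fun x => by
    rw [pow_transvection_apply h0 ht, ZMod.natCast_zmod_val]⟩⟩

lemma exists_pow_eq_one_of_nilpotent (g : V ≃ₗ[ZMod p] V)
    (h : IsNilpotent ((g : V →ₗ[ZMod p] V) - LinearMap.id)) : ∃ n : ℕ, g ^ p ^ n = 1 := by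
  obtain ⟨n, hn⟩ := h
  rcases subsingleton_or_nontrivial V with hV | hV
  · exact ⟨0, LinearEquiv.ext fun x => Subsingleton.elim _ _⟩
  refine ⟨n, ?_⟩
  set X : Module.End (ZMod p) V := (g : V →ₗ[ZMod p] V) - LinearMap.id with hX
  haveI : CharP (Module.End (ZMod p) V) p :=
    charP_of_injective_algebraMap (algebraMap (ZMod p) (Module.End (ZMod p) V)).injective p
  have hle : n ≤ p ^ n := (Nat.lt_pow_self (Fact.out : p.Prime).one_lt).le
  have h1 : (1 + X) ^ p ^ n = 1 := by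
    rw [add_pow_char_pow_of_commute p n (Commute.one_left X), one_pow, pow_eq_zero_of_le hle hn,
      add_zero]
  have hpow : ∀ (m : ℕ) (x : V), (g ^ m) x = ((1 + X) ^ m) x := fun m => by
    induction m with
    | zero => intro x; rfl
    | succ m ih =>
      intro x
      rw [pow_succ, LinearEquiv.mul_apply, pow_succ, Module.End.mul_apply, ih]
      congr 1
      simp [hX]
  exact LinearEquiv.ext fun x => by rw [hpow, h1]; rfl

/-- The restriction of `g` to an invariant subspace. -/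
noncomputable def restrictEquiv (g : V ≃ₗ[ZMod p] V) (U : Submodule (ZMod p) V)
    (h : U.map (g : V →ₗ[ZMod p] V) = U) : U ≃ₗ[ZMod p] U :=
  LinearEquiv.ofSubmodules g U U h

lemma restrictEquiv_apply (g : V ≃ₗ[ZMod p] V) (U : Submodule (ZMod p) V)
    (h : U.map (g : V →ₗ[ZMod p] V) = U) (x : U) : (restrictEquiv g U h x : V) = g x :=
  LinearEquiv.ofSubmodules_apply g h x

lemma exists_action {K : Subgroup (V ≃ₗ[ZMod p] V)} {C : Set (V × Dual (ZMod p) V)} (D : TvComp K C)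
    (U : Submodule (ZMod p) V) (hU : U = cSpan C) :
    ∃ ρ : ↥K →* (↥U ≃ₗ[ZMod p] ↥U),
      (∀ (h : ↥K) (v : ↥U), ((ρ h v : ↥U) : V) = (h : V ≃ₗ[ZMod p] V) (v : V)) ∧
      ((ρ.range : Set (↥U ≃ₗ[ZMod p] ↥U)) =
          {f : ↥U ≃ₗ[ZMod p] ↥U | LinearMap.det (f : ↥U →ₗ[ZMod p] ↥U) = 1} ∨
        ∃ B : LinearMap.BilinForm (ZMod p) ↥U, B.IsAlt ∧ B.Nondegenerate ∧
          (ρ.range : Set (↥U ≃ₗ[ZMod p] ↥U)) = {f : ↥U ≃ₗ[ZMod p] ↥U | ∀ x y, B (f x) (f y) = B x y}) := by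
  subst hU
  have hst : ∀ g : ↥K, (cSpan C).map ((g : V ≃ₗ[ZMod p] V) : V →ₗ[ZMod p] V) = cSpan C := fun g =>
    Submodule.eq_of_le_of_finrank_eq (by rintro - ⟨x, hx, rfl⟩; exact D.cSpan_map g.2 hx)
      (LinearEquiv.finrank_map_eq _ _)
  let ρ : ↥K →* (↥(cSpan C) ≃ₗ[ZMod p] ↥(cSpan C)) :=
    { toFun := fun g => restrictEquiv (g : V ≃ₗ[ZMod p] V) (cSpan C) (hst g)
      map_one' := LinearEquiv.ext fun x => Subtype.ext (restrictEquiv_apply _ _ _ _)
      map_mul' := fun a b => LinearEquiv.ext fun x => Subtype.ext (by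
        rw [restrictEquiv_apply, LinearEquiv.mul_apply, restrictEquiv_apply, restrictEquiv_apply]
        rfl) }
  have hρ : ∀ (h : ↥K) (v : ↥(cSpan C)), ((ρ h v : ↥(cSpan C)) : V) = (h : V ≃ₗ[ZMod p] V) (v : V) :=
    fun h v => restrictEquiv_apply _ _ _ _
  have hrange : ∀ f, f ∈ ρ.range ↔
      ∃ g, ∃ _ : g ∈ K, ∀ x : cSpan C, (f x : V) = g x := by
    refine fun f => ⟨?_, ?_⟩
    · rintro ⟨g, rfl⟩; exact ⟨g, g.2, fun x => hρ g x⟩
    · rintro ⟨g, hg, hgf⟩
      exact ⟨⟨g, hg⟩, LinearEquiv.ext fun x => Subtype.ext ((hρ _ x).trans (hgf x).symm)⟩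
  refine ⟨ρ, hρ, ?_⟩
  rcases D.action with h | ⟨B, hA, hnd, h⟩
  · exact Or.inl (Set.ext fun f => (hrange f).trans (h f))
  · exact Or.inr ⟨B, hA, hnd, Set.ext fun f => (hrange f).trans (h f)⟩

theorem mclaughlin (hp : Odd p) (H : Subgroup (V ≃ₗ[ZMod p] V)) (T : Set (V ≃ₗ[ZMod p] V))
    (hHT : H = Subgroup.closure T)
    (hT : ∀ t ∈ T, orderOf t = p ∧
      finrank (ZMod p) ↥(LinearMap.ker ((t : V →ₗ[ZMod p] V) - LinearMap.id)) + 1 =
        finrank (ZMod p) V)
    (hOp : Cfsg.pCore p ↥H = ⊥) :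
    ∃ (n : ℕ) (W : Fin (n + 1) → Submodule (ZMod p) V) (K : Fin n → Subgroup (V ≃ₗ[ZMod p] V)),
      1 ≤ n ∧ DirectSum.IsInternal W ∧
      (∀ h ∈ H, ∀ i, (W i).map (h : V →ₗ[ZMod p] V) = W i) ∧
      (∀ j, K j ≤ H ∧ ((K j).subgroupOf H).Normal) ∧ ⨆ j, K j = H ∧
      (∀ j, K j ⊓ (⨆ j' ∈ {j' : Fin n | j' ≠ j}, K j') = ⊥) ∧
      (∀ j j', j ≠ j' → ∀ a ∈ K j, ∀ b ∈ K j', a * b = b * a) ∧
      (∀ j, ∀ h ∈ K j, ∀ i : Fin (n + 1), i ≠ j.succ → ∀ v ∈ W i, h v = v) ∧
      (∀ j, ∃ ρ : ↥(K j) →* (↥(W j.succ) ≃ₗ[ZMod p] ↥(W j.succ)),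
        (∀ (h : ↥(K j)) (v : ↥(W j.succ)), ((ρ h v : ↥(W j.succ)) : V) = (h : V ≃ₗ[ZMod p] V) (v : V)) ∧
        ((ρ.range : Set (↥(W j.succ) ≃ₗ[ZMod p] ↥(W j.succ))) =
            {f : ↥(W j.succ) ≃ₗ[ZMod p] ↥(W j.succ) | LinearMap.det (f : ↥(W j.succ) →ₗ[ZMod p] ↥(W j.succ)) = 1} ∨
          ∃ B : LinearMap.BilinForm (ZMod p) ↥(W j.succ), B.IsAlt ∧ B.Nondegenerate ∧
            (ρ.range : Set (↥(W j.succ) ≃ₗ[ZMod p] ↥(W j.succ))) = {f : ↥(W j.succ) ≃ₗ[ZMod p] ↥(W j.succ) | ∀ x y, B (f x) (f y) = B x y})) := by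
  classical
  have htwo : (2 : ZMod p) ≠ 0 := Ring.two_ne_zero (by
    rw [ZMod.ringChar_zmod_n]; rintro rfl; exact absurd hp (by decide))
  rcases T.eq_empty_or_nonempty with hT0 | hT0
  · -- the trivial group
    have hH : H = ⊥ := by rw [hHT, hT0, Subgroup.closure_empty]
    refine ⟨1, ![⊤, ⊥], fun _ => ⊥, le_rfl, ?_, ?_, fun _ => ⟨bot_le, ?_⟩, by simp [hH], by simp, ?_,
      ?_, ?_⟩
    · rw [DirectSum.isInternal_submodule_iff_iSupIndep_and_iSup_eq_top]
      refine ⟨fun i => ?_, eq_top_iff.2 (le_iSup_of_le 0 (by simp))⟩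
      fin_cases i
      · refine disjoint_iff.2 (le_bot_iff.1 (inf_le_right.trans (iSup₂_le fun j hj => ?_)))
        fin_cases j
        · exact absurd rfl hj
        · simp
      · simp
    · intro h hh i
      rw [hH, Subgroup.mem_bot] at hh
      subst hh
      exact Submodule.map_id _
    · rw [Subgroup.bot_subgroupOf]; infer_instance
    · rintro j j' - a ha b hb
      rw [Subgroup.mem_bot] at ha hb
      rw [ha, hb]
    · rintro j h hh i - v -
      rw [Subgroup.mem_bot] at hh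
      rw [hh]; rfl
    · intro j
      fin_cases j
      refine ⟨1, fun h v => ?_, Or.inl ?_⟩
      · rw [show (h : V ≃ₗ[ZMod p] V) = 1 from Subgroup.mem_bot.1 h.2]; rfl
      · refine Set.ext fun f => ⟨?_, ?_⟩
        · rintro ⟨h, rfl⟩; exact LinearMap.det_id
        · intro _
          refine ⟨1, LinearEquiv.ext fun v => Subtype.ext ?_⟩
          have h0 : ∀ w : ↥((![⊤, ⊥] : Fin 2 → Submodule (ZMod p) V) (Fin.succ (0 : Fin 1))), (w : V) = 0 :=
            fun w => (Submodule.mem_bot (ZMod p)).1 w.2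
          exact (h0 _).trans (h0 _).symm
  -- the pairs of the generators
  let P := {q : V × Dual (ZMod p) V // q.1 ≠ 0 ∧ q.2 ≠ 0 ∧ q.2 q.1 = 0 ∧ ∃ t ∈ T, ∀ x, t x = x + q.2 x • q.1}
  have hpair : ∀ t ∈ T, ∃ q : P, ∀ x, t x = x + q.1.2 x • q.1.1 := fun t ht => by
    obtain ⟨u, φ, h1, h2, h3, h4⟩ := exists_pair_of_transvection t (hT t ht).1 (hT t ht).2
    exact ⟨⟨(u, φ), h1, h2, h3, t, ht, h4⟩, h4⟩
  haveI : Finite (Dual (ZMod p) V) := Finite.of_injective _ DFunLike.coe_injective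
  haveI : Finite P := inferInstance
  haveI : Fintype P := Fintype.ofFinite P
  let r : P → P → Prop := Relation.EqvGen fun q q' => TvAdj q.1 q'.1
  let sd : Setoid P := ⟨r, Relation.EqvGen.is_equivalence _⟩
  haveI : Fintype (Quotient sd) := Fintype.ofFinite _
  set n := Fintype.card (Quotient sd) with hn
  let e : Quotient sd ≃ Fin n := Fintype.equivFin _
  let cl : P → Fin n := fun q => e (Quotient.mk sd q)
  have hcl_surj : Function.Surjective cl := fun j => by
    obtain ⟨q, hq⟩ := Quotient.exists_rep (e.symm j)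
    exact ⟨q, by simp [cl, hq]⟩
  have hcl : ∀ q q', cl q = cl q' ↔ r q q' := fun q q' =>
    ⟨fun h => Quotient.exact (e.injective h), fun h => congrArg e (Quotient.sound h)⟩
  let C : Fin n → Set (V × Dual (ZMod p) V) := fun j => {x | ∃ q : P, cl q = j ∧ q.1 = x}
  let K : Fin n → Subgroup (V ≃ₗ[ZMod p] V) := fun j =>
    Subgroup.closure {g | ∃ x ∈ C j, ∀ y, g y = y + x.2 y • x.1}
  have hgenH : ∀ j g, (∃ x ∈ C j, ∀ y, g y = y + x.2 y • x.1) → g ∈ H := by
    rintro j g ⟨x, ⟨q, -, rfl⟩, hg⟩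
    obtain ⟨t, ht, htx⟩ := q.2.2.2.2
    rw [show g = t from LinearEquiv.ext fun y => (hg y).trans (htx y).symm, hHT]
    exact Subgroup.subset_closure ht
  have hKH : ∀ j, K j ≤ H := fun j => (Subgroup.closure_le H).2 fun g hg => hgenH j g hg
  have hcross : ∀ {i j}, i ≠ j → ∀ x ∈ C i, ∀ y ∈ C j, x.2 y.1 = 0 := by
    rintro i j hij x ⟨q, rfl, rfl⟩ y ⟨q', rfl, rfl⟩
    by_contra h
    exact hij ((hcl q q').2 (Relation.EqvGen.rel _ _ (Or.inl h)))
  have hcomm : ∀ {i j}, i ≠ j → K i ≤ Subgroup.centralizer (K j : Set (V ≃ₗ[ZMod p] V)) := by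
    intro i j hij
    rw [Subgroup.closure_le]
    rintro g ⟨x, hx, hg⟩
    rw [SetLike.mem_coe, Subgroup.centralizer_closure, Subgroup.mem_centralizer_iff]
    rintro g' ⟨y, hy, hg'⟩
    refine LinearEquiv.ext fun v => ?_
    simp only [LinearEquiv.mul_apply, hg, hg', map_add, map_smul, hcross hij x hx y hy,
      hcross hij.symm y hy x hx]
    module
  have hK : ⨆ j, K j = H := by
    refine le_antisymm (iSup_le hKH) ?_
    rw [hHT, Subgroup.closure_le]
    intro t ht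
    obtain ⟨q, hq⟩ := hpair t ht
    exact Subgroup.mem_iSup_of_mem (cl q) (Subgroup.subset_closure ⟨q.1, ⟨q, rfl, rfl⟩, hq⟩)
  have hnorm : ∀ j, ∀ h ∈ H, ∀ (N : Subgroup (V ≃ₗ[ZMod p] V)), N ≤ K j →
      (∀ a ∈ K j, ∀ g ∈ N, a * g * a⁻¹ ∈ N) → ∀ g ∈ N, h * g * h⁻¹ ∈ N := by
    intro j h hh N hN hNK
    rw [← hK] at hh
    refine Subgroup.iSup_induction K (C := fun h => ∀ g ∈ N, h * g * h⁻¹ ∈ N) hh (fun i a ha => ?_)
      (fun g hg => by simpa using hg) fun a b ha hb g hg => ?_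
    · intro g hg
      by_cases hij : i = j
      · subst hij; exact hNK a ha g hg
      · have := Subgroup.mem_centralizer_iff.1 (hcomm hij ha) g (hN hg)
        rwa [← this, mul_inv_cancel_right]
    · have := ha _ (hb g hg)
      rwa [show a * b * g * (a * b)⁻¹ = a * (b * g * b⁻¹) * a⁻¹ by group]
  have hD : ∀ j, TvComp (K j) (C j) := fun j =>
    { two := htwo
      ne := by obtain ⟨q, hq⟩ := hcl_surj j; exact ⟨q.1, q, hq, rfl⟩
      mem := by
        rintro x ⟨q, hq, rfl⟩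
        obtain ⟨t, -, htx⟩ := q.2.2.2.2
        exact ⟨q.2.1, q.2.2.1,
          isTvIn_of_mem (Subgroup.subset_closure ⟨q.1, ⟨q, hq, rfl⟩, htx⟩) q.2.2.2.1 htx⟩
      gen := le_rfl
      conn := by
        intro C' hsub hne hclosed
        refine subset_antisymm hsub ?_
        obtain ⟨x₀, hx₀⟩ := hne
        obtain ⟨q₀, hq₀, rfl⟩ := hsub hx₀
        have key : ∀ q q' : P, r q q' → ((cl q = j ∧ q.1 ∈ C') ↔ (cl q' = j ∧ q'.1 ∈ C')) := by
          intro q q' h
          induction h with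
          | rel a b hab =>
            have hcab : cl a = cl b := (hcl a b).2 (Relation.EqvGen.rel _ _ hab)
            exact ⟨fun ⟨h1, h2⟩ => ⟨hcab ▸ h1, hclosed _ h2 _ ⟨b, hcab ▸ h1, rfl⟩ hab⟩,
              fun ⟨h1, h2⟩ => ⟨hcab.trans h1, hclosed _ h2 _ ⟨a, hcab.trans h1, rfl⟩ hab.symm⟩⟩
          | refl a => exact Iff.rfl
          | symm a b _ ih => exact ih.symm
          | trans a b c _ _ ih1 ih2 => exact ih1.trans ih2
        rintro x ⟨q, hq, rfl⟩
        exact ((key q₀ q ((hcl q₀ q).1 (hq₀.trans hq.symm))).1 ⟨hq₀, hx₀⟩).2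
      noUnip := by
        intro N hNK hNn hnil
        have hNH : N ≤ H := hNK.trans (hKH j)
        have hle : N.subgroupOf H ≤ Cfsg.pCore p ↥H := le_sSup ⟨⟨fun a ha g => by
            rw [Subgroup.mem_subgroupOf] at ha ⊢
            simpa using hnorm j g g.2 N hNK hNn a ha⟩, fun a => by
              obtain ⟨m, hm⟩ := exists_pow_eq_one_of_nilpotent _ (hnil _ (Subgroup.mem_subgroupOf.1 a.2))
              exact ⟨m, by ext1; ext1; simpa using hm⟩⟩
        rw [hOp, le_bot_iff, Subgroup.subgroupOf_eq_bot] at hle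
        exact le_bot_iff.1 ((le_inf le_rfl hNH).trans hle.le_bot) }
  let U : Fin n → Submodule (ZMod p) V := fun j => cSpan (C j)
  let Z : Fin n → Submodule (ZMod p) V := fun j => (fSpan (C j)).dualCoannihilator
  have hUZ : ∀ {i j}, i ≠ j → U i ≤ Z j := fun {i j} hij => Submodule.span_le.2 (by
    rintro - ⟨x, hx, rfl⟩
    rw [SetLike.mem_coe, Submodule.mem_dualCoannihilator]
    intro θ hθ
    refine (Submodule.span_le (p := LinearMap.ker (Dual.eval (ZMod p) V x.1))).2 ?_ hθ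
    rintro - ⟨y, hy, rfl⟩
    exact hcross hij.symm y hy x hx)
  have hfix : ∀ {j g}, g ∈ K j → ∀ v ∈ Z j, g v = v := fun {j g} hg v hv =>
    (hD j).rad_fix hg ((Submodule.mem_dualCoannihilator _).1 hv)
  have hdisj : ∀ j, U j ⊓ Z j = ⊥ := fun j => (hD j).disjoint_rad
  have hsup : ∀ j, U j ⊔ Z j = ⊤ := fun j => (hD j).sup_rad
  have hproj : ∀ j, ∃ π : V →ₗ[ZMod p] V, (∀ x, π x ∈ U j) ∧ (∀ x, x - π x ∈ Z j) ∧
      (∀ x ∈ U j, π x = x) ∧ ∀ x ∈ Z j, π x = 0 := fun j => by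
    have hc : IsCompl (U j) (Z j) :=
      ⟨disjoint_iff.2 (hdisj j), codisjoint_iff.2 (hsup j)⟩
    refine ⟨(U j).subtype ∘ₗ (U j).projectionOnto (Z j) hc, fun x => ((U j).projectionOnto (Z j) hc x).2,
      fun x => ?_, fun x hx => ?_, fun x hx => ?_⟩
    · obtain ⟨a, ha, b, hb, rfl⟩ := Submodule.mem_sup.1 (hsup j ▸ Submodule.mem_top : x ∈ U j ⊔ Z j)
      simp only [LinearMap.comp_apply, Submodule.coe_subtype, map_add]
      rw [show a = ((⟨a, ha⟩ : U j) : V) from rfl, Submodule.projectionOnto_apply_left,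
        Submodule.projectionOnto_apply_of_mem_right hc hb]
      simpa using hb
    · simp only [LinearMap.comp_apply, Submodule.coe_subtype]
      rw [show x = ((⟨x, hx⟩ : U j) : V) from rfl, Submodule.projectionOnto_apply_left]
    · simp only [LinearMap.comp_apply, Submodule.coe_subtype]
      rw [Submodule.projectionOnto_apply_of_mem_right hc hx]; rfl
  choose π hπU hπZ hπid hπ0 using hproj
  have hrest : ∀ x, x - ∑ j, π j x ∈ ⨅ j, Z j := fun x => (Submodule.mem_iInf _).2 fun i => by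
    rw [← Finset.add_sum_erase _ _ (Finset.mem_univ i), ← sub_sub]
    exact Submodule.sub_mem _ (hπZ i x) (Submodule.sum_mem _ fun j hj =>
      hUZ (Finset.ne_of_mem_erase hj) (hπU j x))
  have hker : (⨆ j, U j) ⊓ (⨅ j, Z j) = ⊥ := (Submodule.eq_bot_iff _).2 fun x ⟨hxU, hxZ⟩ => by
    have hle : (⨆ j, U j) ≤ LinearMap.ker (LinearMap.id - ∑ j, π j) := iSup_le fun i y hy => by
      rw [LinearMap.mem_ker, LinearMap.sub_apply, LinearMap.id_apply, LinearMap.sum_apply,
        Finset.sum_eq_single i (fun b _ hb => hπ0 b y (hUZ hb.symm hy))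
          (fun h => absurd (Finset.mem_univ i) h), hπid i y hy, sub_self]
    have h := hle hxU
    rw [LinearMap.mem_ker, LinearMap.sub_apply, LinearMap.id_apply, LinearMap.sum_apply,
      Finset.sum_eq_zero (fun b _ => hπ0 b x ((Submodule.mem_iInf _).1 hxZ b)), sub_zero] at h
    exact h
  have hother : ∀ {i j}, i ≠ j → ∀ g ∈ K i, ∀ v ∈ U j, g v = v := fun {i j} hij g hg v hv =>
    hfix hg v (hUZ hij.symm hv)
  have hstab : ∀ h ∈ H, ∀ i : Fin (n + 1),
      ∀ v ∈ (Fin.cons (⨅ j, Z j) U : Fin (n + 1) → Submodule (ZMod p) V) i,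
        h v ∈ (Fin.cons (⨅ j, Z j) U : Fin (n + 1) → Submodule (ZMod p) V) i := by
    intro h hh
    rw [← hK] at hh
    refine Subgroup.iSup_induction K (C := fun h => ∀ i : Fin (n + 1),
      ∀ v ∈ (Fin.cons (⨅ j, Z j) U : Fin (n + 1) → Submodule (ZMod p) V) i,
        h v ∈ (Fin.cons (⨅ j, Z j) U : Fin (n + 1) → Submodule (ZMod p) V) i) hh (fun j a ha => ?_)
      (fun i v hv => hv) fun a b ha hb i v hv => ha i _ (hb i v hv)
    refine Fin.cases ?_ ?_
    · intro v hv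
      rw [Fin.cons_zero] at hv ⊢
      rwa [hfix ha v ((Submodule.mem_iInf _).1 hv j)]
    · intro i v hv
      rw [Fin.cons_succ] at hv ⊢
      by_cases hij : j = i
      · subst hij; exact (hD j).cSpan_map ha hv
      · rwa [hother hij a ha v hv]
  have hn1 : 1 ≤ n := by
    obtain ⟨t, ht⟩ := hT0
    obtain ⟨q, -⟩ := hpair t ht
    exact Fintype.card_pos_iff.2 ⟨Quotient.mk sd q⟩
  refine ⟨n, Fin.cons (⨅ j, Z j) U, K, hn1, ?_, ?_, fun j => ⟨hKH j, ?_⟩, hK, ?_, ?_, ?_, ?_⟩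
  · rw [DirectSum.isInternal_submodule_iff_iSupIndep_and_iSup_eq_top]
    refine ⟨?_, ?_⟩
    · refine Fin.cases ?_ ?_
      · rw [disjoint_iff, Fin.cons_zero, inf_comm, eq_bot_iff, ← hker]
        refine inf_le_inf_right _ (iSup₂_le ?_)
        refine Fin.cases (fun h => absurd rfl h) (fun i _ => ?_)
        rw [Fin.cons_succ]
        exact le_iSup U i
      · intro j
        rw [disjoint_iff, Fin.cons_succ, eq_bot_iff, ← hdisj j]
        refine inf_le_inf_left _ (iSup₂_le ?_)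
        refine Fin.cases (fun _ => ?_) (fun i hi => ?_)
        · rw [Fin.cons_zero]; exact iInf_le Z j
        · rw [Fin.cons_succ]; exact hUZ fun e => hi (congrArg Fin.succ e)
    · refine eq_top_iff.2 fun x _ => ?_
      rw [show x = (x - ∑ j, π j x) + ∑ j, π j x by abel]
      refine Submodule.add_mem _ (Submodule.mem_iSup_of_mem 0 (by rw [Fin.cons_zero]; exact hrest x))
        (Submodule.sum_mem _ fun j _ => Submodule.mem_iSup_of_mem j.succ ?_)
      rw [Fin.cons_succ]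
      exact hπU j x
  · intro h hh i
    refine Submodule.eq_of_le_of_finrank_eq ?_ (LinearEquiv.finrank_map_eq _ _)
    rintro - ⟨v, hv, rfl⟩
    exact hstab h hh i v hv
  · refine ⟨fun a ha g => ?_⟩
    rw [Subgroup.mem_subgroupOf] at ha ⊢
    simpa using hnorm j g g.2 (K j) le_rfl (fun b hb c hc => mul_mem (mul_mem hb hc) (inv_mem hb)) a ha
  · intro j
    refine (Subgroup.eq_bot_iff_forall _).2 fun g ⟨hg1, hg2⟩ => LinearEquiv.ext fun v => ?_
    have hg3 : ∀ w ∈ U j, g w = w := by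
      intro w hw
      have hle : (⨆ j' ∈ {j' : Fin n | j' ≠ j}, K j') ≤
          (Subgroup.closure {a : V ≃ₗ[ZMod p] V | a w = w}) :=
        iSup₂_le fun i hi a ha => Subgroup.subset_closure (hother hi a ha w hw)
      have hc : ∀ a ∈ Subgroup.closure {a : V ≃ₗ[ZMod p] V | a w = w}, a w = w := fun a ha => by
        induction ha using Subgroup.closure_induction with
        | mem a ha => exact ha
        | one => rfl
        | mul a b _ _ ha hb => rw [LinearEquiv.mul_apply, hb, ha]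
        | inv a _ ha => conv_lhs => rw [← ha]
                        exact a.symm_apply_apply w
      exact hc g (hle hg2)
    rw [show v = π j v + (v - π j v) by abel, map_add, map_add, hg3 _ (hπU j v), hfix hg1 _ (hπZ j v)]
    rfl
  · intro i j hij a ha b hb
    exact (Subgroup.mem_centralizer_iff.1 (hcomm hij ha) b hb).symm
  · intro j g hg
    refine Fin.cases ?_ ?_
    · intro _ v hv
      rw [Fin.cons_zero] at hv
      exact hfix hg v ((Submodule.mem_iInf _).1 hv j)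
    · intro i hi v hv
      rw [Fin.cons_succ] at hv
      exact hother (fun e => hi (congrArg Fin.succ e.symm)) g hg v hv
  · intro j
    exact exists_action (hD j) _ (Fin.cons_succ _ _ j)

end CfsgLib.Transpositions
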