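import Cfsg.Agent.Lib.Transpositions.McLComp

/-!
The centres of a component meet the common zeros of its functionals trivially.
-/
set_option autoImplicit false

open Module

namespace CfsgLib.Transpositions

variable {k : Type*} [Field k] {V : Type*} [AddCommGroup V] [Module k V] [FiniteDimensional k V]
  {K : Subgroup (V ≃ₗ[k] V)} {C : Set (V × Dual k V)}

lemma exists_one_zero {W : Type*} [AddCommGroup W] [Module k W] {f g : Dual k W}
    (h : ∀ c : k, f ≠ c • g) : ∃ z, f z = 1 ∧ g z = 0 := by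
  obtain ⟨z, hgz, hfz⟩ : ∃ z, g z = 0 ∧ f z ≠ 0 := by
    by_contra hc
    push Not at hc
    by_cases hg : ∃ y, g y ≠ 0
    · obtain ⟨y, hy⟩ := hg
      refine h (f y / g y) (LinearMap.ext fun v => ?_)
      have h1 := hc (v - (g v / g y) • y) (by simp [hy])
      rw [map_sub, map_smul, smul_eq_mul, sub_eq_zero] at h1
      rw [LinearMap.smul_apply, smul_eq_mul, h1]
      ring
    · push Not at hg
      exact h 0 (LinearMap.ext fun v => by rw [hc v (hg v)]; simp)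
  exact ⟨(f z)⁻¹ • z, by simp [hfz], by simp [hgz]⟩

namespace TvComp

variable (D : TvComp K C)
include D

theorem rad_eq_bot {x : V} (hx : x ∈ cSpan C) (h : ∀ θ ∈ fSpan C, θ x = 0) : x = 0 := by
  classical
  set π := (compRad C).mkQ with hπ
  have hs : Function.Surjective π := Submodule.mkQ_surjective _
  have hker : LinearMap.ker π = compRad C := Submodule.ker_mkQ _
  have M := D.mcl_image hs hker
  -- lifts of transvections
  let IsLift (w : cSpan C ⧸ compRad C) (ψ : Dual k (cSpan C ⧸ compRad C)) (u : cSpan C)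
      (θ : Dual k V) : Prop :=
    π u = w ∧ θ ∈ fSpan C ∧ (∀ y, ψ (π y) = θ (y : V)) ∧ IsTvIn K (u : V) θ
  have hconj : ∀ {w ψ u θ}, IsLift w ψ u θ → ∀ g ∈ D.imageGroup π,
      ∃ u' θ', IsLift (g w) (ψ ∘ₗ (g.symm : _ →ₗ[k] _)) u' θ' ∧
        ∀ a, ∀ ha : a ∈ K, (∀ y, g (π y) = π (D.restr ha y)) → u' = D.restr ha u := by
    rintro w ψ u θ ⟨hu, hθ, hψ, htv⟩ g ⟨a, ha, hga⟩
    refine ⟨D.restr ha u, θ ∘ₗ (a.symm : V →ₗ[k] V), ⟨by rw [← hga, hu], D.fSpan_map (inv_mem ha) hθ,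
      fun y => ?_, htv.conj ha⟩, fun b hb hgb => ?_⟩
    · have e : g.symm (π y) = π (D.restr (inv_mem ha) y) := by
        rw [LinearEquiv.symm_apply_eq, hga]
        exact congrArg π (Subtype.ext (a.apply_symm_apply _).symm)
      rw [LinearMap.comp_apply, LinearEquiv.coe_coe, e, hψ]
      rfl
    · obtain rfl := D.eq_of_image_eq hker ha hb fun y => (hga y).symm.trans (hgb y)
      rfl
  have hsmul : ∀ {w ψ u θ}, IsLift w ψ u θ → ∀ c : k, IsLift w (c • ψ) u (c • θ) := by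
    rintro w ψ u θ ⟨hu, hθ, hψ, htv⟩ c
    exact ⟨hu, Submodule.smul_mem _ c hθ, fun y => by simp [hψ],
      mem_tvSpace.1 (Submodule.smul_mem _ c (mem_tvSpace.2 htv))⟩
  have hbase : ∀ p (hp : p ∈ C), ∃ ψ, ψ ≠ 0 ∧
      π ⟨p.1, Submodule.subset_span ⟨p, hp, rfl⟩⟩ ≠ 0 ∧
      IsLift (π ⟨p.1, Submodule.subset_span ⟨p, hp, rfl⟩⟩) ψ ⟨p.1, Submodule.subset_span ⟨p, hp, rfl⟩⟩ p.2 := by
    intro p hp
    obtain ⟨hp1, hp2, hp3⟩ := D.mem p hp
    obtain ⟨ψ, hψ⟩ := D.exists_induced hs hker (θ := p.2) (Submodule.subset_span ⟨p, hp, rfl⟩)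
    obtain ⟨g, hg, hgx⟩ := hp3.exists_one
    have hg1 : g ≠ 1 := fun e => by
      obtain ⟨y, hy⟩ : ∃ y, p.2 y ≠ 0 := by
        by_contra hc
        push Not at hc
        exact hp2 (LinearMap.ext hc)
      have := hgx y
      rw [e] at this
      exact smul_ne_zero hy hp1 (left_eq_add.1 (show y = y + p.2 y • p.1 from this))
    refine ⟨ψ, fun e => hg1 (D.faithful hg fun y hy θ _ => ?_),
      fun e => hg1 (D.faithful hg fun y _ θ hθ => ?_), rfl, Submodule.subset_span ⟨p, hp, rfl⟩, hψ, hp3⟩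
    · rw [hgx, show p.2 y = 0 from (hψ ⟨y, hy⟩).symm.trans (by rw [e]; rfl), zero_smul, add_zero,
        sub_self, map_zero]
    · have h := D.pi_rad hker (e.trans (map_zero π).symm) θ hθ
      simp only [ZeroMemClass.coe_zero, sub_zero] at h
      rw [hgx, add_sub_cancel_left, map_smul, h, smul_zero]
  have hmap : ∀ {a b : cSpan C ⧸ compRad C}, a ≠ 0 → b ≠ 0 → ∃ g ∈ D.imageGroup π, g a = b := by
    intro a b ha hb
    rcases M.exists_common (M.isCtr_all ha) (M.isCtr_all hb) with h | ⟨c, hc, h1, h2⟩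
    · exact M.exists_conj (M.symm ha (M.isCtr_all hb) h) h
    · obtain ⟨g, hg, hga⟩ := M.exists_conj (M.symm ha hc h1) h1
      obtain ⟨g', hg', hgb⟩ := M.exists_conj (M.symm hc.1 (M.isCtr_all hb) h2) h2
      exact ⟨g' * g, mul_mem hg' hg, by rw [LinearEquiv.mul_apply, hga, hgb]⟩
  have hlift : ∀ {w ψ}, w ≠ 0 → IsTvIn (D.imageGroup π) w ψ → ψ ≠ 0 → ∃ u θ, IsLift w ψ u θ := by
    intro w ψ hw hψ hψ0
    obtain ⟨p, hp⟩ := D.ne
    obtain ⟨ψ₀, hψ₀, hw₀, hl₀⟩ := hbase p hp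
    obtain ⟨g, hg, hgw⟩ := hmap hw₀ hw
    obtain ⟨u, θ, hl, -⟩ := hconj hl₀ g hg
    rw [hgw] at hl
    set ψ₁ := ψ₀ ∘ₗ (g.symm : (cSpan C ⧸ compRad C) →ₗ[k] (cSpan C ⧸ compRad C)) with hψ₁
    have hψ₁0 : ψ₁ ≠ 0 := fun e => hψ₀ (LinearMap.ext fun y => by
      have := LinearMap.congr_fun e (g y)
      simpa [hψ₁] using this)
    have hψ₁tv : IsTvIn (D.imageGroup π) w ψ₁ := by
      rw [← hl.1]; exact D.tv_image hs hl.2.2.2 hl.2.2.1
    by_cases hdep : ∃ c : k, ψ = c • ψ₁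
    · obtain ⟨c, rfl⟩ := hdep
      exact ⟨u, c • θ, hsmul hl c⟩
    push Not at hdep
    have hall : ∀ x φ, φ x = 0 → IsTvIn (D.imageGroup π) x φ := M.dichotomy.resolve_right fun h1 => by
      obtain ⟨c, hc⟩ := M.eq_smul_of_finrank_one (h1 w hw) hψ₁tv hψ₁0 hψ
      exact hdep c hc
    obtain ⟨z, hz1, hz2⟩ := exists_one_zero (f := ψ₁) (g := ψ - ψ₁) fun c e => by
      rcases eq_or_ne c 0 with rfl | hc
      · exact hψ₁0 (by simpa using e)
      · refine hdep ((1 + c) / c) ?_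
        conv_rhs => rw [e, smul_smul, div_mul_cancel₀ _ hc]
        rw [add_smul, one_smul, ← e]
        abel
    obtain ⟨t, ht, htx⟩ := (hall z (ψ - ψ₁) hz2).2 (-1)
    obtain ⟨u', θ', hl', -⟩ := hconj hl t ht
    have htw : t w = w := by
      rw [htx, LinearMap.sub_apply, hψ.1, hψ₁tv.1]; simp
    rw [htw] at hl'
    have hψeq : ψ₁ ∘ₗ (t.symm : (cSpan C ⧸ compRad C) →ₗ[k] (cSpan C ⧸ compRad C)) = ψ := by
      refine LinearMap.ext fun y => ?_
      have h1 := htx (t.symm y)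
      rw [t.apply_symm_apply] at h1
      have h2 : (ψ - ψ₁) y = (ψ - ψ₁) (t.symm y) := by
        conv_lhs => rw [h1, map_add, map_smul, hz2, smul_zero, add_zero]
      have h3 := congrArg ψ₁ h1
      rw [map_add, map_smul, hz1, ← h2, smul_eq_mul] at h3
      rw [LinearMap.comp_apply, LinearEquiv.coe_coe]
      simp only [LinearMap.sub_apply] at h3
      linear_combination -h3
    rw [hψeq] at hl'
    exact ⟨u', θ', hl'⟩
  have huniq : ∀ {w ψ ψ' u u' θ θ'}, w ≠ 0 → ψ ≠ 0 → ψ' ≠ 0 → IsLift w ψ u θ → IsLift w ψ' u' θ' →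
      u = u' := by
    intro w ψ ψ' u u' θ θ' hw hψ0 hψ'0 hl hl'
    obtain ⟨hu, hθ, hψ, htv⟩ := hl
    obtain ⟨hu', hθ', hψ', htv'⟩ := hl'
    by_cases hdep : ∃ c : k, ψ' = c • ψ
    · obtain ⟨c, rfl⟩ := hdep
      obtain ⟨g, hg, hgx⟩ := htv.2 c
      obtain ⟨g', hg', hgx'⟩ := htv'.exists_one
      have e : g = g' := D.eq_of_image_eq hker hg hg' fun y => by
        rw [show D.restr hg y = y + (c * θ (y : V)) • u from Subtype.ext (hgx y),
          show D.restr hg' y = y + θ' (y : V) • u' from Subtype.ext (hgx' y), map_add, map_add, map_smul,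
          map_smul, hu, hu', ← hψ, ← hψ', LinearMap.smul_apply, smul_eq_mul]
      obtain ⟨y, hy⟩ : ∃ y, (c • ψ) (π y) ≠ 0 := by
        by_contra hc
        push Not at hc
        exact hψ'0 (LinearMap.ext fun v => by obtain ⟨y, rfl⟩ := hs v; exact hc y)
      have h1 := hgx (y : V)
      rw [e, hgx', add_right_inj, ← hψ', ← hψ, LinearMap.smul_apply, smul_eq_mul] at h1
      exact (Subtype.ext (smul_right_injective V hy h1)).symm
    push Not at hdep
    have hsum : ψ + ψ' ≠ 0 := fun e =>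
      hdep (-1) ((eq_neg_of_add_eq_zero_right e).trans (neg_one_smul k ψ).symm)
    have htvw : IsTvIn (D.imageGroup π) w (ψ + ψ') :=
      mem_tvSpace.1 (Submodule.add_mem _ (mem_tvSpace.2 (hu ▸ D.tv_image hs htv hψ))
        (mem_tvSpace.2 (hu' ▸ D.tv_image hs htv' hψ')))
    obtain ⟨u₂, θ₂, hu₂, hθ₂, hψ₂, htv₂⟩ := hlift hw htvw hsum
    obtain ⟨g, hg, hgx⟩ := htv.exists_one
    obtain ⟨g', hg', hgx'⟩ := htv'.exists_one
    obtain ⟨g₂, hg₂, hgx₂⟩ := htv₂.exists_one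
    have e₀ : ∀ y : cSpan C, D.restr (mul_mem hg hg') y = y + θ (y : V) • u + θ' (y : V) • u' := fun y =>
      Subtype.ext (by
        show g (g' (y : V)) = _
        have h0 : θ (u' : V) = 0 := by
          rw [← hψ, hu', ← hu, hψ]; exact htv.1
        rw [hgx', map_add, map_smul, hgx, hgx (u' : V), h0, zero_smul, add_zero]
        rfl)
    have e : g₂ = g * g' := D.eq_of_image_eq hker hg₂ (mul_mem hg hg') fun y => by
      rw [show D.restr hg₂ y = y + θ₂ (y : V) • u₂ from Subtype.ext (hgx₂ y), e₀, map_add, map_add,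
        map_add, map_smul, map_smul, map_smul, hu, hu', hu₂, ← hψ, ← hψ', ← hψ₂, LinearMap.add_apply,
        add_smul]
      abel
    have heval : ∀ y : cSpan C, θ₂ (y : V) • u₂ = θ (y : V) • u + θ' (y : V) • u' := fun y => by
      have h1 : D.restr hg₂ y = D.restr (mul_mem hg hg') y := Subtype.ext (by subst e; rfl)
      rw [e₀, show D.restr hg₂ y = y + θ₂ (y : V) • u₂ from Subtype.ext (hgx₂ y), add_assoc] at h1
      exact add_left_cancel h1
    obtain ⟨a, ha1, ha2⟩ := exists_one_zero (f := ψ) (g := ψ') fun c e' => by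
      rcases eq_or_ne c 0 with rfl | hc
      · exact hψ0 (by simpa using e')
      · exact hdep c⁻¹ (by rw [e', smul_smul, inv_mul_cancel₀ hc, one_smul])
    obtain ⟨b, hb1, hb2⟩ := exists_one_zero (f := ψ') (g := ψ) fun c e' => hdep c e'
    obtain ⟨ya, rfl⟩ := hs a
    obtain ⟨yb, rfl⟩ := hs b
    have h1 := heval ya
    have h2 := heval yb
    rw [← hψ₂, ← hψ, ← hψ', LinearMap.add_apply, ha1, ha2] at h1
    rw [← hψ₂, ← hψ, ← hψ', LinearMap.add_apply, hb1, hb2] at h2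
    simp only [add_zero, zero_add, one_smul, zero_smul] at h1 h2
    exact h1.symm.trans h2
  -- the section
  have hex : ∀ w, ∃ u : cSpan C, (w = 0 → u = 0) ∧
      (w ≠ 0 → ∃ ψ θ, ψ ≠ 0 ∧ IsLift w ψ u θ) := fun w => by
    rcases eq_or_ne w 0 with rfl | hw
    · exact ⟨0, fun _ => rfl, fun h => absurd rfl h⟩
    · obtain ⟨ψ, hψ, hψ0⟩ := (Submodule.ne_bot_iff _).1 (M.isCtr_all hw).2
      obtain ⟨u, θ, hl⟩ := hlift hw (mem_tvSpace.1 hψ) hψ0
      exact ⟨u, fun e => absurd e hw, fun _ => ⟨ψ, θ, hψ0, hl⟩⟩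
  choose s hs0 hsl using hex
  have hseq : ∀ {w ψ u θ}, w ≠ 0 → ψ ≠ 0 → IsLift w ψ u θ → s w = u := fun {w ψ u θ} hw hψ hl => by
    obtain ⟨ψ', θ', hψ', hl'⟩ := hsl w hw
    exact huniq hw hψ' hψ hl' hl
  have hs_smul : ∀ (c : k) w, s (c • w) = c • s w := fun c w => by
    rcases eq_or_ne c 0 with rfl | hc
    · rw [zero_smul, zero_smul, hs0 0 rfl]
    rcases eq_or_ne w 0 with rfl | hw
    · rw [smul_zero, hs0 0 rfl, smul_zero]
    obtain ⟨ψ, θ, hψ0, hu, hθ, hψ, htv⟩ := hsl w hw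
    refine hseq (ψ := ψ) (θ := θ) (smul_ne_zero hc hw) hψ0 ⟨by rw [map_smul, hu], hθ, hψ, ?_⟩
    rw [← mem_tvSpace, Submodule.coe_smul, tvSpace_smul hc]
    exact htv
  have hs_rel : ∀ {a b}, a ≠ 0 → b ≠ 0 → TvRel (D.imageGroup π) a b → s (b + a) = s b + s a := by
    intro a b ha hb h
    obtain ⟨φ, hφ, hφb⟩ := h
    have hφ0 : φ ≠ 0 := fun e => hφb (by simp [e])
    obtain ⟨ua, θa, hla⟩ := hlift ha hφ hφ0
    obtain ⟨ψb, θb, hψb0, hlb⟩ := hsl b hb
    obtain ⟨hua, hθa, hψa, htva⟩ := hla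
    rw [hseq ha hφ0 ⟨hua, hθa, hψa, htva⟩]
    obtain ⟨t, ht, htx⟩ := hφ.2 (φ b)⁻¹
    obtain ⟨a', ha', hax⟩ := htva.2 (φ b)⁻¹
    obtain ⟨u, θ, hl, hu⟩ := hconj hlb t ht
    have htb : t b = b + a := by rw [htx, inv_mul_cancel₀ hφb, one_smul]
    rw [htb] at hl
    have hu' : u = s b + ua := by
      rw [hu a' ha' fun y => by
        rw [htx, show D.restr ha' y = y + ((φ b)⁻¹ * θa (y : V)) • ua from Subtype.ext (hax y), map_add,
          map_smul, hua, hψa]]
      refine Subtype.ext ?_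
      show a' (s b : V) = _
      rw [hax, ← hψa, hlb.1, inv_mul_cancel₀ hφb, one_smul]
      rfl
    rw [← hu']
    refine hseq (fun e => ?_) (fun e => hψb0 (LinearMap.ext fun y => ?_)) hl
    · exact hb (t.injective (by rw [htb, e, map_zero]))
    · have := LinearMap.congr_fun e (t y)
      simpa using this
  have hs_add : ∀ a b, s (a + b) = s a + s b := by
    intro a b
    rcases eq_or_ne a 0 with rfl | ha
    · rw [zero_add, hs0 0 rfl, zero_add]
    rcases eq_or_ne b 0 with rfl | hb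
    · rw [add_zero, hs0 0 rfl, add_zero]
    rcases eq_or_ne (a + b) 0 with hab | hab
    · rw [hab, hs0 0 rfl, show b = (-1 : k) • a by rw [neg_one_smul]; exact eq_neg_of_add_eq_zero_right hab,
        hs_smul, neg_one_smul, add_neg_cancel]
    by_cases h : TvRel (D.imageGroup π) b a
    · exact hs_rel hb ha h
    obtain ⟨fa, hfa, hfa0⟩ := (Submodule.ne_bot_iff _).1 (M.isCtr_all ha).2
    obtain ⟨fb, hfb, hfb0⟩ := (Submodule.ne_bot_iff _).1 (M.isCtr_all hb).2
    obtain ⟨fc, hfc, hfc0⟩ := (Submodule.ne_bot_iff _).1 (M.isCtr_all hab).2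
    have hne : ∀ {f : Dual k (cSpan C ⧸ compRad C)}, f ≠ 0 →
        ∃ y ∈ (⊤ : Submodule k (cSpan C ⧸ compRad C)), f y ≠ 0 := fun {f} hf => by
      by_contra hc
      push Not at hc
      exact hf (LinearMap.ext fun y => hc y Submodule.mem_top)
    obtain ⟨z, -, hza, hzb, hzc⟩ := M.exists_three ⊤ fa fb fc (hne hfa0) (hne hfb0) (hne hfc0)
    have hz : z ≠ 0 := fun e => hza (by simp [e])
    have hbz : b + z ≠ 0 := fun e => hzb (by
      rw [eq_neg_of_add_eq_zero_right e, map_neg, (mem_tvSpace.1 hfb).1, neg_zero])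
    have hab' : TvRel (D.imageGroup π) a (b + z) := by
      refine ⟨fa, hfa, ?_⟩
      rw [map_add, show fa b = 0 from by_contra fun e =>
        h ((M.rel_comm ha hb).1 ⟨fa, hfa, e⟩), zero_add]
      exact hza
    have e1 := hs_rel ha hbz hab'
    rw [hs_rel hz hb ((M.rel_comm hb hz).1 ⟨fb, hfb, hzb⟩)] at e1
    have e2 := hs_rel hz hab ((M.rel_comm hab hz).1 ⟨fc, hfc, hzc⟩)
    rw [show a + b + z = b + z + a by abel, e1] at e2
    linear_combination (norm := abel) -e2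
  let S : (cSpan C ⧸ compRad C) →ₗ[k] cSpan C :=
    { toFun := s, map_add' := hs_add, map_smul' := hs_smul }
  have hid : ∀ (y : V) (hy : y ∈ cSpan C), S (π ⟨y, hy⟩) = ⟨y, hy⟩ := by
    intro y hy
    induction hy using Submodule.span_induction with
    | mem y hy =>
      obtain ⟨p, hp, rfl⟩ := hy
      obtain ⟨ψ, hψ0, hne, hl⟩ := hbase p hp
      exact hseq hne hψ0 hl
    | zero => exact (congrArg S (map_zero π)).trans (map_zero S)
    | add a b ha hb iha ihb =>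
      show S (π (⟨a, ha⟩ + ⟨b, hb⟩)) = ⟨a, ha⟩ + ⟨b, hb⟩
      rw [map_add, map_add, iha, ihb]
    | smul c a ha iha =>
      show S (π (c • ⟨a, ha⟩)) = c • ⟨a, ha⟩
      rw [map_smul, map_smul, iha]
  have h0 : π ⟨x, hx⟩ = 0 := by rw [← LinearMap.mem_ker, hker, mem_compRad]; exact h
  have := hid x hx
  rw [h0, map_zero] at this
  exact (congrArg Subtype.val this).symm

end TvComp

end CfsgLib.Transpositions
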