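import Mathlib
import Cfsg.Agent.Lib.ClassicalLinear.Generation

/-!
Transvections in groups of linear automorphisms, by centre and functional.
-/
set_option autoImplicit false

open Module

namespace CfsgLib.Transpositions

variable {k : Type*} [Field k] {V : Type*} [AddCommGroup V] [Module k V]
  {G : Subgroup (V ≃ₗ[k] V)} {u w : V} {φ χ : Dual k V}

/-- `G` contains the whole transvection line of `(u, φ)`. -/
def IsTvIn (G : Subgroup (V ≃ₗ[k] V)) (u : V) (φ : Dual k V) : Prop :=
  φ u = 0 ∧ ∀ c : k, ∃ g ∈ G, ∀ x, g x = x + (c * φ x) • u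

lemma IsTvIn.exists_one (h : IsTvIn G u φ) : ∃ g ∈ G, ∀ x, g x = x + φ x • u := by
  obtain ⟨g, hg, hgx⟩ := h.2 1
  exact ⟨g, hg, fun x => by rw [hgx, one_mul]⟩

lemma IsTvIn.mono {G' : Subgroup (V ≃ₗ[k] V)} (h : IsTvIn G u φ) (hle : G ≤ G') : IsTvIn G' u φ :=
  ⟨h.1, fun c => let ⟨g, hg, e⟩ := h.2 c; ⟨g, hle hg, e⟩⟩

lemma isTvIn_zero_right (u : V) : IsTvIn G u (0 : Dual k V) :=
  ⟨rfl, fun c => ⟨1, one_mem _, fun x => by simp⟩⟩

/-- The functionals of the transvections of `G` with centre `u`. -/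
def tvSpace (G : Subgroup (V ≃ₗ[k] V)) (u : V) : Submodule k (Dual k V) where
  carrier := {φ | IsTvIn G u φ}
  zero_mem' := isTvIn_zero_right u
  add_mem' := by
    rintro φ ψ ⟨h1, h2⟩ ⟨h1', h2'⟩
    refine ⟨by simp [h1, h1'], fun c => ?_⟩
    obtain ⟨g, hg, hgx⟩ := h2 c
    obtain ⟨g', hg', hgx'⟩ := h2' c
    refine ⟨g * g', mul_mem hg hg', fun x => ?_⟩
    rw [LinearEquiv.mul_apply, hgx', map_add, map_smul, hgx, hgx u, LinearMap.add_apply]
    simp only [h1, mul_zero, zero_smul, add_zero]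
    module
  smul_mem' := by
    rintro a φ ⟨h1, h2⟩
    refine ⟨by simp [h1], fun c => ?_⟩
    obtain ⟨g, hg, hgx⟩ := h2 (c * a)
    exact ⟨g, hg, fun x => by rw [hgx, LinearMap.smul_apply, smul_eq_mul, mul_assoc]⟩

lemma mem_tvSpace : φ ∈ tvSpace G u ↔ IsTvIn G u φ := Iff.rfl

lemma tvSpace_smul {a : k} (ha : a ≠ 0) : tvSpace G (a • u) = tvSpace G u := by
  ext φ
  constructor
  · rintro ⟨h1, h2⟩
    refine ⟨by simpa [ha] using h1, fun c => ?_⟩
    obtain ⟨g, hg, hgx⟩ := h2 (c * a⁻¹)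
    refine ⟨g, hg, fun x => ?_⟩
    rw [hgx, smul_smul]
    congr 2
    field_simp
  · rintro ⟨h1, h2⟩
    refine ⟨by simp [h1], fun c => ?_⟩
    obtain ⟨g, hg, hgx⟩ := h2 (c * a)
    refine ⟨g, hg, fun x => ?_⟩
    rw [hgx, smul_smul]
    congr 2
    ring

/-- Conjugation. -/
lemma IsTvIn.conj (h : IsTvIn G u φ) {g : V ≃ₗ[k] V} (hg : g ∈ G) :
    IsTvIn G (g u) (φ ∘ₗ (g.symm : V →ₗ[k] V)) := by
  refine ⟨by simp [h.1], fun c => ?_⟩
  obtain ⟨t, ht, htx⟩ := h.2 c
  refine ⟨g * t * g⁻¹, mul_mem (mul_mem hg ht) (inv_mem hg), fun x => ?_⟩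
  show g (t (g.symm x)) = _
  rw [htx, map_add, map_smul, g.apply_symm_apply]
  rfl

/-- The commutator of two transvections in the asymmetric case. -/
lemma IsTvIn.commutator (hu : IsTvIn G u φ) (hw : IsTvIn G w χ) (h0 : φ w = 0) (h1 : χ u ≠ 0) :
    IsTvIn G w φ := by
  refine ⟨h0, fun c => ?_⟩
  obtain ⟨s, hs, hsx⟩ := hw.2 (c / χ u)
  obtain ⟨t, ht, htx⟩ := hu.2 1
  obtain ⟨s', hs', hsx'⟩ := hw.2 (-(c / χ u))
  obtain ⟨t', ht', htx'⟩ := hu.2 (-1)
  refine ⟨s * t * s' * t', mul_mem (mul_mem (mul_mem hs ht) hs') ht', fun x => ?_⟩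
  simp only [LinearEquiv.mul_apply, hsx, htx, hsx', htx', map_add, map_smul, hu.1, hw.1, h0,
    smul_eq_mul, mul_zero, zero_smul, add_zero, zero_add]
  match_scalars <;> field_simp <;> ring

/-- The symplectic transvection generation of an isometry. -/
theorem isometry_mem_of_transvections [FiniteDimensional k V] {B : LinearMap.BilinForm k V}
    (hA : B.IsAlt) (hB : ∀ x, (∀ y, B x y = 0) → x = 0)
    (hG : ∀ u, IsTvIn G u (B u)) {g : V ≃ₗ[k] V} (hg : ∀ x y, B (g x) (g y) = B x y) : g ∈ G := by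
  suffices H : ∀ n (g : V ≃ₗ[k] V), (∀ x y, B (g x) (g y) = B x y) →
      finrank k V ≤ finrank k ↥(LinearMap.ker ((g : V →ₗ[k] V) - LinearMap.id)) + n → g ∈ G from
    H (finrank k V) g hg (Nat.le_add_left _ _)
  intro n
  induction n with
  | zero =>
    intro g _ hle
    have htop := Submodule.eq_top_of_finrank_eq (le_antisymm (Submodule.finrank_le _) hle)
    rw [show g = 1 from LinearEquiv.ext fun x => by
      have := LinearMap.mem_ker.1 (htop ▸ Submodule.mem_top : x ∈ LinearMap.ker ((g : V →ₗ[k] V) - LinearMap.id))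
      simpa [sub_eq_zero] using this]
    exact one_mem _
  | succ n ih =>
    intro g hg hle
    set W := LinearMap.ker ((g : V →ₗ[k] V) - LinearMap.id) with hW
    have hmemW : ∀ {x}, x ∈ W ↔ g x = x := fun {x} => by
      simp [hW, LinearMap.mem_ker, sub_eq_zero]
    rcases eq_or_ne W ⊤ with hWt | hWt
    · exact ih g hg (by rw [← hW, hWt, finrank_top]; omega)
    obtain ⟨x, -, hx⟩ := SetLike.exists_of_lt hWt.lt_top
    have hskew : ∀ a b, B a b = -B b a := fun a b => (LinearMap.IsAlt.neg hA b a).symm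
    have step : ∀ t : V ≃ₗ[k] V, t ∈ G → (∀ a b, B (t a) (t b) = B a b) → (∀ v ∈ W, t v = v) →
        t (g x) = x → g ∈ G := by
      intro t ht htB htW htx
      have hmem : t * g ∈ G := by
        refine ih (t * g) (fun a b => by rw [LinearEquiv.mul_apply, LinearEquiv.mul_apply, htB, hg]) ?_
        set W' := LinearMap.ker (((t * g : V ≃ₗ[k] V) : V →ₗ[k] V) - LinearMap.id)
        have hlt : W < W' := by
          refine lt_of_le_of_ne (fun v hv => ?_) fun e => hx (e ▸ ?_)
          · simp [W', LinearMap.mem_ker, hmemW.1 hv, htW v hv]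
          · simp [W', LinearMap.mem_ker, htx]
        have := Submodule.finrank_lt_finrank_of_lt hlt
        omega
      simpa using mul_mem (inv_mem ht) hmem
    have mk : ∀ a b : V, B a b ≠ 0 → (∀ v ∈ W, B (a - b) v = 0) →
        ∃ t ∈ G, (∀ c d, B (t c) (t d) = B c d) ∧ (∀ v ∈ W, t v = v) ∧ t a = b := by
      intro a b hab hW'
      obtain ⟨t, ht, htx⟩ := (hG (a - b)).2 (-(B (a - b) a)⁻¹)
      have hne : B (a - b) a ≠ 0 := by
        rw [map_sub, LinearMap.sub_apply, hA a, zero_sub, neg_ne_zero, hskew]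
        simpa using hab
      refine ⟨t, ht, fun c d => ?_, fun v hv => by rw [htx, hW' v hv, mul_zero, zero_smul, add_zero], ?_⟩
      · rw [htx, htx]
        simp only [map_add, map_smul, LinearMap.add_apply, LinearMap.smul_apply, smul_eq_mul,
          hA (a - b), hskew c (a - b)]
        ring
      · rw [htx, neg_mul, inv_mul_cancel₀ hne, neg_one_smul]
        abel
    have hy : ∀ v ∈ W, B (g x) v = B x v := fun v hv => by
      conv_lhs => rw [← hmemW.1 hv]
      exact hg x v
    have hyW : g x ∉ W := fun h => hx (hmemW.2 (g.injective (hmemW.1 h)))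
    by_cases hxy : B (g x) x ≠ 0
    · obtain ⟨t, ht, htB, htW, htx⟩ := mk (g x) x hxy fun v hv => by
        rw [map_sub, LinearMap.sub_apply, hy v hv, sub_self]
      exact step t ht htB htW htx
    push Not at hxy
    -- two functionals which do not vanish on the orthogonal of `W`
    have hperp : ∀ v, v ∉ W → ∃ d, (∀ a ∈ W, B d a = 0) ∧ B d v ≠ 0 := by
      intro v hv
      obtain ⟨f, hfv, hfW⟩ := Submodule.exists_dual_map_eq_bot_of_notMem hv inferInstance
      have hinj : Function.Injective B := (injective_iff_map_eq_zero B).2 fun a ha => hB a fun y => by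
        rw [ha]; rfl
      obtain ⟨d, hd⟩ := (LinearMap.injective_iff_surjective_of_finrank_eq_finrank
        Subspace.dual_finrank_eq.symm).1 hinj f
      refine ⟨d, fun a ha => ?_, by rwa [hd]⟩
      rw [hd, ← Submodule.mem_bot k, ← hfW]
      exact Submodule.mem_map_of_mem ha
    obtain ⟨d₁, hd₁, hd₁'⟩ := hperp x hx
    obtain ⟨d₂, hd₂, hd₂'⟩ := hperp (g x) hyW
    obtain ⟨d, hd, hdx, hdy⟩ : ∃ d, (∀ a ∈ W, B d a = 0) ∧ B d x ≠ 0 ∧ B d (g x) ≠ 0 := by
      by_cases h1 : B d₁ (g x) = 0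
      · by_cases h2 : B d₂ x = 0
        · exact ⟨d₁ + d₂, fun a ha => by simp [hd₁ a ha, hd₂ a ha], by simpa [h2] using hd₁',
            by simpa [h1] using hd₂'⟩
        · exact ⟨d₂, hd₂, h2, hd₂'⟩
      · exact ⟨d₁, hd₁, hd₁', h1⟩
    obtain ⟨t₁, ht₁, ht₁B, ht₁W, ht₁x⟩ := mk (g x) (x + d)
      (by rw [map_add, hxy, zero_add, hskew]; simpa using hdy) fun v hv => by
        simp [hy v hv, hd v hv]
    obtain ⟨t₂, ht₂, ht₂B, ht₂W, ht₂x⟩ := mk (x + d) x
      (by rw [map_add, LinearMap.add_apply, hA x, zero_add]; exact hdx) fun v hv => by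
        rw [add_sub_cancel_left, hd v hv]
    exact step (t₂ * t₁) (mul_mem ht₂ ht₁)
      (fun a b => by rw [LinearEquiv.mul_apply, LinearEquiv.mul_apply, ht₂B, ht₁B])
      (fun v hv => by rw [LinearEquiv.mul_apply, ht₁W v hv, ht₂W v hv])
      (by rw [LinearEquiv.mul_apply, ht₁x, ht₂x])

/-- Transvections generate the automorphisms of determinant one. -/
theorem det_one_mem_of_transvections [FiniteDimensional k V]
    (hG : ∀ u φ, φ u = 0 → IsTvIn G u φ) {g : V ≃ₗ[k] V} (hg : LinearMap.det (g : V →ₗ[k] V) = 1) :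
    g ∈ G := by
  classical
  let b := Module.finBasis k V
  let f : Matrix.SpecialLinearGroup (Fin (finrank k V)) k →* Module.End k V :=
    { toFun := fun A => Matrix.toLin b b (A : Matrix _ _ k)
      map_one' := by simp [Matrix.toLin_one]; rfl
      map_mul' := fun A B => by
        rw [Matrix.SpecialLinearGroup.coe_mul, Matrix.toLin_mul b b b]; rfl }
  let F := (LinearMap.GeneralLinearGroup.generalLinearEquiv k V).toMonoidHom.comp f.toHomUnits
  have hF : ∀ A x, F A x = f A x := fun A x => rfl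
  have htop : G.comap F = ⊤ := CfsgLib.ClassicalLinear.eq_top_of_transvection_mem fun i j hij c => by
    obtain ⟨t, ht, htx⟩ := (hG (b i) (b.coord j) (by simp [hij])).2 c
    rw [Subgroup.mem_comap]
    convert ht using 1
    refine LinearEquiv.toLinearMap_injective (b.ext fun l => ?_)
    show F _ (b l) = t (b l)
    rw [hF, htx]
    show Matrix.toLin b b (Matrix.transvection i j c) (b l) = _
    rw [Matrix.toLin_self]
    simp [Matrix.transvection, Matrix.one_apply, Matrix.single_apply, add_smul, ite_and, ite_smul,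
      Finset.sum_add_distrib, Finsupp.single_apply, eq_comm]
  let A : Matrix.SpecialLinearGroup (Fin (finrank k V)) k :=
    ⟨LinearMap.toMatrix b b (g : V →ₗ[k] V), by rw [LinearMap.det_toMatrix, hg]⟩
  have hA : F A = g := LinearEquiv.ext fun x => by
    rw [hF]
    show Matrix.toLin b b (LinearMap.toMatrix b b (g : V →ₗ[k] V)) x = g x
    rw [Matrix.toLin_toMatrix]
    rfl
  have := (htop ▸ Subgroup.mem_top A : A ∈ G.comap F)
  rwa [Subgroup.mem_comap, hA] at this

end CfsgLib.Transpositions
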